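import Mathlib

/-!
# Fixed points of automorphisms of finite abelian groups: basic tools

We work with a commutative group `A` (written multiplicatively) and the group `MulAut A`.
-/

set_option autoImplicit false
set_option linter.unusedSectionVars false
set_option linter.unusedVariables false
set_option linter.style.haveILetI false

namespace Cfsg.Agent.Lib.LinAvoid

open Subgroup

variable {A : Type*} [CommGroup A]

/-- Fixed points of one automorphism. -/
def Fe (a : MulAut A) : Subgroup A where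
  carrier := {v | a v = v}
  mul_mem' := by
    intro x y hx hy
    have hx' : a x = x := hx
    have hy' : a y = y := hy
    show a (x * y) = x * y
    rw [map_mul, hx', hy']
  one_mem' := by simp
  inv_mem' := by
    intro x hx
    have hx' : a x = x := hx
    show a x⁻¹ = x⁻¹
    rw [map_inv, hx']

@[simp] theorem mem_Fe {a : MulAut A} {v : A} : v ∈ Fe a ↔ a v = v := Iff.rfl

/-- Fixed points of a set of automorphisms (given as a subgroup). -/
def Fx (L : Subgroup (MulAut A)) : Subgroup A where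
  carrier := {v | ∀ a ∈ L, a v = v}
  mul_mem' := by
    intro x y hx hy a ha
    rw [map_mul, hx a ha, hy a ha]
  one_mem' := by intro a _; simp
  inv_mem' := by
    intro x hx a ha
    rw [map_inv, hx a ha]

@[simp] theorem mem_Fx {L : Subgroup (MulAut A)} {v : A} : v ∈ Fx L ↔ ∀ a ∈ L, a v = v := Iff.rfl

theorem card_lt_of_lt {G : Type*} [Group G] [Finite G] {S T : Subgroup G} (h : S < T) :
    Nat.card S < Nat.card T := by
  have h1 : (S : Set G) ⊂ T := h
  have := Set.ncard_lt_ncard h1 (Set.toFinite _)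
  show Nat.card (S : Set G) < Nat.card (T : Set G)
  rw [Nat.card_coe_set_eq, Nat.card_coe_set_eq]
  exact this

theorem card_le_of_le {G : Type*} [Group G] [Finite G] {S T : Subgroup G} (h : S ≤ T) :
    Nat.card S ≤ Nat.card T := by
  exact Subgroup.card_le_of_le h

/-- Coprime powers are injective. -/
theorem eq_one_of_pow_coprime [Finite A] {n : ℕ} (hn : Nat.Coprime n (Nat.card A)) {u : A}
    (h : u ^ n = 1) : u = 1 := by
  have h1 : u ^ Nat.card A = 1 := pow_card_eq_one'
  have h2 : orderOf u ∣ n := orderOf_dvd_of_pow_eq_one h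
  have h3 : orderOf u ∣ Nat.card A := orderOf_dvd_of_pow_eq_one h1
  have h4 : orderOf u ∣ 1 := by
    have := Nat.dvd_gcd h2 h3
    rwa [hn] at this
  exact orderOf_eq_one_iff.mp (Nat.dvd_one.mp h4)

theorem pow_coprime_inj [Finite A] {n : ℕ} (hn : Nat.Coprime n (Nat.card A)) {u w : A}
    (h : u ^ n = w ^ n) : u = w := by
  have : (u * w⁻¹) ^ n = 1 := by
    rw [mul_pow, inv_pow, h, mul_inv_cancel]
  have := eq_one_of_pow_coprime hn this
  exact mul_inv_eq_one.mp this

/-- A subgroup containing `u ^ n`, `n` coprime to the order, contains `u`. -/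
theorem mem_of_pow_mem [Finite A] {n : ℕ} (hn : Nat.Coprime n (Nat.card A)) {S : Subgroup A} {u : A}
    (h : u ^ n ∈ S) : u ∈ S := by
  have h1 : Nat.Coprime n (orderOf u) := Nat.Coprime.coprime_dvd_right (orderOf_dvd_natCard u) hn
  have h2 : u ∈ zpowers (u ^ n) := by
    obtain ⟨m, hm⟩ := exists_pow_eq_self_of_coprime (x := u) h1
    exact ⟨m, by simpa using hm⟩
  exact (zpowers_le.mpr h) h2

section Independence

variable {ι : Type*} [Fintype ι]

/-- Component extraction for an independent family. -/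
theorem comp_unique (B : ι → Subgroup A)
    (hind : ∀ f : ι → A, (∀ i, f i ∈ B i) → ∏ i, f i = 1 → ∀ i, f i = 1)
    (t : MulAut A) (π : Equiv.Perm ι) (ht : ∀ i, ∀ u ∈ B i, t u ∈ B (π i))
    (f : ι → A) (hf : ∀ i, f i ∈ B i) (h : t (∏ i, f i) = ∏ i, f i) :
    ∀ i, t (f i) = f (π i) := by
  have hmem : ∀ j, t (f (π⁻¹ j)) * (f j)⁻¹ ∈ B j := by
    intro j
    refine mul_mem ?_ (inv_mem (hf j))
    have := ht (π⁻¹ j) _ (hf (π⁻¹ j))
    simpa using this
  have hprod : ∏ j, (t (f (π⁻¹ j)) * (f j)⁻¹) = 1 := by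
    rw [Finset.prod_mul_distrib, Finset.prod_inv_distrib]
    have h1 : ∏ j, t (f (π⁻¹ j)) = ∏ i, t (f i) :=
      Fintype.prod_equiv (π⁻¹) _ _ (fun _ => rfl)
    rw [h1, ← map_prod, h, mul_inv_cancel]
  have := hind _ hmem hprod
  intro i
  have h2 := this (π i)
  have h3 : π⁻¹ (π i) = i := by simp
  rw [h3] at h2
  exact mul_inv_eq_one.mp h2

end Independence

section Powers

variable {p : ℕ} [hp : Fact p.Prime]

/-- The norm-type product over powers. -/
noncomputable def Sp (p : ℕ) [Fact p.Prime] (w : MulAut A) (u : A) : A := ∏ k : ZMod p, (w ^ k.val) u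

theorem pow_val_add {G : Type*} [Group G] {z : G} (hz : z ^ p = 1) (i j : ZMod p) :
    z ^ (i + j).val = z ^ i.val * z ^ j.val := by
  rw [ZMod.val_add, ← pow_eq_pow_mod _ hz, pow_add]

theorem pow_val_mul {G : Type*} [Group G] {z : G} (hz : z ^ p = 1) (i j : ZMod p) :
    z ^ (i * j).val = (z ^ i.val) ^ j.val := by
  rw [ZMod.val_mul, ← pow_eq_pow_mod _ hz, pow_mul]

theorem pow_natCast_val {G : Type*} [Group G] {z : G} (hz : z ^ p = 1) (m : ℕ) :
    z ^ ((m : ZMod p)).val = z ^ m := by
  rw [ZMod.val_natCast, ← pow_eq_pow_mod _ hz]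

theorem mem_of_mem_pow {S : Subgroup A} {w : MulAut A} (hw : ∀ u ∈ S, w u ∈ S) (k : ℕ) {u : A}
    (hu : u ∈ S) : (w ^ k) u ∈ S := by
  induction k with
  | zero => simpa using hu
  | succ k ih =>
    rw [pow_succ', MulAut.mul_apply]
    exact hw _ ih

theorem Sp_mem {S : Subgroup A} {w : MulAut A} (hw : ∀ u ∈ S, w u ∈ S) {u : A} (hu : u ∈ S) :
    Sp p w u ∈ S :=
  prod_mem fun k _ => mem_of_mem_pow hw _ hu

/-- The product over powers is fixed. -/
theorem Sp_fixed {w : MulAut A} (hw : w ^ p = 1) (u : A) : w (Sp p w u) = Sp p w u := by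
  unfold Sp
  rw [map_prod]
  refine Fintype.prod_equiv (Equiv.addRight (1 : ZMod p)) _ _ ?_
  intro k
  rw [← MulAut.mul_apply, ← pow_succ']
  simp only [Equiv.coe_addRight]
  congr 1
  rw [pow_val_add hw]
  by_cases h1 : Nat.Prime p
  · have h2 : (1 : ZMod p).val = 1 := by
      haveI : Fact (1 < p) := ⟨h1.one_lt⟩
      exact ZMod.val_one p
    rw [h2, pow_one, pow_succ]
  · exact absurd hp.out h1

theorem Sp_pow {w : MulAut A} (hw : w ^ p = 1) {i : ZMod p} (hi : i ≠ 0) (u : A) :
    Sp p (w ^ i.val) u = Sp p w u := by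
  unfold Sp
  refine Fintype.prod_equiv (Equiv.mulLeft₀ i hi) _ _ ?_
  intro k
  show ((w ^ i.val) ^ k.val) u = (w ^ (i * k).val) u
  rw [pow_val_mul hw]

theorem Sp_of_fixed {w : MulAut A} {u : A} (hu : w u = u) : Sp p w u = u ^ p := by
  have h1 : ∀ k : ℕ, (w ^ k) u = u := by
    intro k
    induction k with
    | zero => simp
    | succ k ih => rw [pow_succ', MulAut.mul_apply, ih, hu]
  unfold Sp
  simp only [h1, Finset.prod_const, Finset.card_univ, ZMod.card]

/-- The rank two identity. -/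
theorem prod_Sp_mul_pow {a z : MulAut A} (hac : a * z = z * a) (hz : z ^ p = 1) (u : A) :
    ∏ i : ZMod p, Sp p (a * z ^ i.val) u =
      u ^ p * ∏ k ∈ (Finset.univ.erase (0 : ZMod p)), (a ^ k.val) (Sp p z u) := by
  classical
  have hc : Commute a z := hac
  have h1 : ∀ i k : ZMod p, ((a * z ^ i.val) ^ k.val) u = (a ^ k.val) ((z ^ (k * i).val) u) := by
    intro i k
    rw [(hc.pow_right i.val).mul_pow, MulAut.mul_apply, mul_comm k i, pow_val_mul hz]
  unfold Sp
  simp only [h1]
  rw [Finset.prod_comm, ← Finset.mul_prod_erase Finset.univ _ (Finset.mem_univ (0 : ZMod p))]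
  congr 1
  · simp [Finset.card_univ, ZMod.card]
  · refine Finset.prod_congr rfl ?_
    intro k hk
    have hk0 : k ≠ 0 := (Finset.mem_erase.mp hk).1
    rw [← map_prod]
    congr 1
    refine Fintype.prod_equiv (Equiv.mulLeft₀ k hk0) _ _ ?_
    intro i
    simp

end Powers

end Cfsg.Agent.Lib.LinAvoid
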