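import Mathlib
import Cfsg.Agent.Lib.LinAvoid.Basic

/-!
# Reduction along an independent family of subgroups permuted by the acting group
-/

set_option autoImplicit false
set_option linter.unusedSectionVars false
set_option linter.unusedVariables false
set_option linter.style.haveILetI false

universe u

namespace Cfsg.Agent.Lib.LinAvoid

open Subgroup

/-- The avoidance property, bounded version. -/
def AvoidP (p a b : ℕ) : Prop :=
  ∀ (A : Type u) [CommGroup A] [Finite A] (H : Type u) [Group H] (ρ : H →* MulAut A)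
    (T : Subgroup H), T.Normal → IsPGroup p T → ∀ x ∈ T, ρ x ≠ 1 → Nat.Coprime p (Nat.card A) →
    Nat.card (T.map ρ) ≤ a → Nat.card A ≤ b → ∃ v : A, ∀ g : H, ρ (g * x * g⁻¹) v ≠ v

variable {A : Type u} [CommGroup A]

/-- Restriction of automorphisms to an invariant subgroup. -/
def resHom {J : Type*} [Group J] (φ : J →* MulAut A) (S : Subgroup A)
    (h : ∀ g, ∀ u ∈ S, φ g u ∈ S) : J →* MulAut S where
  toFun g :=
    { toFun := fun u => ⟨φ g u, h g u u.2⟩
      invFun := fun u => ⟨φ g⁻¹ u, h g⁻¹ u u.2⟩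
      left_inv := by
        intro u
        apply Subtype.ext
        show φ g⁻¹ (φ g u) = u
        rw [← MulAut.mul_apply, ← map_mul]
        simp
      right_inv := by
        intro u
        apply Subtype.ext
        show φ g (φ g⁻¹ u) = u
        rw [← MulAut.mul_apply, ← map_mul]
        simp
      map_mul' := by
        intro x y
        apply Subtype.ext
        show φ g ((x : A) * y) = φ g x * φ g y
        rw [map_mul] }
  map_one' := by
    ext u
    show φ 1 (u : A) = u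
    simp
  map_mul' := by
    intro a b
    ext u
    show φ (a * b) (u : A) = φ a (φ b u)
    rw [map_mul, MulAut.mul_apply]

theorem resHom_apply {J : Type*} [Group J] (φ : J →* MulAut A) (S : Subgroup A)
    (h : ∀ g, ∀ u ∈ S, φ g u ∈ S) (g : J) (u : S) : ((resHom φ S h g u : S) : A) = φ g u := rfl

/-- The automorphism of the permutation module. -/
def permAut {ι : Type*} (π : Equiv.Perm ι) : MulAut (ι → Multiplicative (ZMod 2)) where
  toFun f := fun i => f (π⁻¹ i)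
  invFun f := fun i => f (π i)
  left_inv := by
    intro f
    ext i
    simp
  right_inv := by
    intro f
    ext i
    simp
  map_mul' := by
    intro f g
    rfl

/-- The action on the permutation module. -/
def permHom {ι : Type*} {J : Type*} [Group J] (π : J →* Equiv.Perm ι) :
    J →* MulAut (ι → Multiplicative (ZMod 2)) where
  toFun g := permAut (π g)
  map_one' := by
    ext f i
    show f ((π 1)⁻¹ i) = f i
    simp
  map_mul' := by
    intro a b
    ext f i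
    show f ((π (a * b))⁻¹ i) = f ((π b)⁻¹ ((π a)⁻¹ i))
    simp

theorem permHom_apply {ι : Type*} {J : Type*} [Group J] (π : J →* Equiv.Perm ι) (g : J)
    (f : ι → Multiplicative (ZMod 2)) (i : ι) : permHom π g f i = f ((π g)⁻¹ i) := rfl

section Block

variable [Finite A] {p : ℕ} {ι : Type*} [Fintype ι]

theorem block_a (H T : Subgroup (MulAut A)) (π : H →* Equiv.Perm ι) (B : ι → Subgroup A)
    (hB : ∀ (g : H) (i : ι), ∀ u ∈ B i, (g : MulAut A) u ∈ B (π g i))
    (hind : ∀ f : ι → A, (∀ i, f i ∈ B i) → ∏ i, f i = 1 → ∀ i, f i = 1)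
    (hTle : T ≤ H) (hTn : ∀ g ∈ H, ∀ t ∈ T, g * t * g⁻¹ ∈ T) (hTp : IsPGroup p T)
    {x : MulAut A} (hx : x ∈ T) (hcop : Nat.Coprime p (Nat.card A))
    (i₁ : ι) (hxi : π ⟨x, hTle hx⟩ i₁ = i₁) (hxnt : ∃ u ∈ B i₁, x u ≠ u)
    (IH : AvoidP.{u} p (Nat.card T) (Nat.card (B i₁))) :
    ∃ v : A, ∀ g ∈ H, (g * x * g⁻¹) v ≠ v := by
  classical
  set J : Subgroup H := (MulAction.stabilizer (Equiv.Perm ι) i₁).comap π with hJdef
  have hJ : ∀ g : H, g ∈ J ↔ π g i₁ = i₁ := by
    intro g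
    rw [hJdef, Subgroup.mem_comap, MulAction.mem_stabilizer_iff]
    rfl
  set φ : J →* MulAut A := H.subtype.comp J.subtype with hφ
  have hφinj : Function.Injective φ := by
    intro a b h
    exact Subtype.ext (Subtype.ext h)
  have hφval : ∀ g : J, φ g = ((g : H) : MulAut A) := fun _ => rfl
  have hres : ∀ g, ∀ u ∈ B i₁, φ g u ∈ B i₁ := by
    intro g u hu
    have h1 := hB (g : H) i₁ u hu
    rwa [(hJ _).mp g.2] at h1
  set ρ₁ : J →* MulAut (B i₁) := resHom φ (B i₁) hres with hρ₁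
  set T' : Subgroup J := T.comap φ with hT'
  have hT'n : T'.Normal := by
    constructor
    intro n hn g
    show φ (g * n * g⁻¹) ∈ T
    rw [map_mul, map_mul, map_inv]
    exact hTn _ ((g : H).2) _ hn
  have hT'p : IsPGroup p T' := hTp.comap_of_injective φ hφinj
  let xH : H := ⟨x, hTle hx⟩
  have hxJ : xH ∈ J := (hJ _).mpr hxi
  let x' : J := ⟨xH, hxJ⟩
  have hx'T : x' ∈ T' := hx
  have hρx : ρ₁ x' ≠ 1 := by
    intro h
    obtain ⟨u, hu, hu2⟩ := hxnt
    apply hu2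
    have h1 := congrArg (fun f : MulAut (B i₁) => ((f ⟨u, hu⟩ : B i₁) : A)) h
    exact h1
  have hcop1 : Nat.Coprime p (Nat.card (B i₁)) :=
    Nat.Coprime.coprime_dvd_right (Subgroup.card_subgroup_dvd_card _) hcop
  have hle : Nat.card (T'.map ρ₁) ≤ Nat.card T := by
    have h1 : Nat.card (T'.map ρ₁) ≤ Nat.card T' :=
      Nat.card_le_card_of_surjective (ρ₁.subgroupMap T') (ρ₁.subgroupMap_surjective T')
    have h2 : Nat.card T' ≤ Nat.card T := by
      refine Nat.card_le_card_of_injective (fun t : T' => (⟨φ t, t.2⟩ : T)) ?_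
      intro a b h
      have h3 : φ a = φ b := congrArg (fun s : T => (s : MulAut A)) h
      exact Subtype.ext (hφinj h3)
    exact h1.trans h2
  obtain ⟨v₁, hv₁⟩ := IH (B i₁) J ρ₁ T' hT'n hT'p x' hx'T hρx hcop1 hle le_rfl
  have hv₁' : ∀ k : J, (φ k * x * (φ k)⁻¹) (v₁ : A) ≠ v₁ := by
    intro k h
    apply hv₁ k
    apply Subtype.ext
    rw [resHom_apply, map_mul, map_mul, map_inv]
    exact h
  -- the vector
  let γ : ι → A := fun i =>
    if h : ∃ g : H, π g i₁ = i then ((h.choose : H) : MulAut A) (v₁ : A) else 1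
  have hγmem : ∀ i, γ i ∈ B i := by
    intro i
    by_cases h : ∃ g : H, π g i₁ = i
    · have h1 : γ i = ((h.choose : H) : MulAut A) (v₁ : A) := dif_pos h
      rw [h1]
      have h2 := hB h.choose i₁ v₁ v₁.2
      rwa [h.choose_spec] at h2
    · have h1 : γ i = 1 := dif_neg h
      rw [h1]
      exact one_mem _
  refine ⟨∏ i, γ i, ?_⟩
  intro g hg hfix
  let gH : H := ⟨g, hg⟩
  let yH : H := gH * xH * gH⁻¹
  have hy : (yH : MulAut A) = g * x * g⁻¹ := rfl
  have hcomp := comp_unique B hind (yH : MulAut A) (π yH) (fun i u hu => hB yH i u hu) γ hγmem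
    (by rw [hy]; exact hfix)
  set i₂ := π gH i₁ with hi₂
  have hyi₂ : π yH i₂ = i₂ := by
    show π (gH * xH * gH⁻¹) (π gH i₁) = π gH i₁
    rw [map_mul, map_mul, map_inv]
    show (π gH) ((π xH) ((π gH)⁻¹ ((π gH) i₁))) = π gH i₁
    have h2 : (π gH)⁻¹ ((π gH) i₁) = i₁ := by simp
    rw [h2, hxi]
  have hex : ∃ g : H, π g i₁ = i₂ := ⟨gH, rfl⟩
  have hγ : γ i₂ = ((hex.choose : H) : MulAut A) (v₁ : A) := dif_pos hex
  set g₂ : H := hex.choose with hg₂
  have hg₂s : π g₂ i₁ = i₂ := hex.choose_spec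
  have h1 := hcomp i₂
  rw [hyi₂, hγ] at h1
  -- conjugate back
  have hk : g₂⁻¹ * gH ∈ J := by
    rw [hJ, map_mul, map_inv]
    show (π g₂)⁻¹ (π gH i₁) = i₁
    rw [← hi₂, ← hg₂s]
    simp
  apply hv₁' ⟨_, hk⟩
  have h2 : φ ⟨_, hk⟩ = (g₂ : MulAut A)⁻¹ * g := rfl
  have h3 : φ ⟨_, hk⟩ * x * (φ ⟨_, hk⟩)⁻¹ = (g₂ : MulAut A)⁻¹ * (yH : MulAut A) * (g₂ : MulAut A) := by
    rw [h2, hy]
    group
  rw [h3]
  show ((g₂ : MulAut A)⁻¹) ((yH : MulAut A) ((g₂ : MulAut A) (v₁ : A))) = v₁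
  rw [h1]
  simp

theorem block_b {ι : Type u} [Fintype ι] (hpp : p.Prime) (hp2 : p ≠ 2) (H T : Subgroup (MulAut A))
    (π : H →* Equiv.Perm ι) (B : ι → Subgroup A)
    (hB : ∀ (g : H) (i : ι), ∀ u ∈ B i, (g : MulAut A) u ∈ B (π g i))
    (hind : ∀ f : ι → A, (∀ i, f i ∈ B i) → ∏ i, f i = 1 → ∀ i, f i = 1)
    (hne : ∀ i, ∃ u ∈ B i, u ≠ 1)
    (hTle : T ≤ H) (hTn : ∀ g ∈ H, ∀ t ∈ T, g * t * g⁻¹ ∈ T) (hTp : IsPGroup p T)
    {x : MulAut A} (hx : x ∈ T)
    (i₀ : ι) (hxi : π ⟨x, hTle hx⟩ i₀ ≠ i₀)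
    (hker : ∃ (t : MulAut A) (ht : t ∈ T), t ≠ 1 ∧ π ⟨t, hTle ht⟩ = 1)
    (IH : ∀ a' < Nat.card T, ∀ b, AvoidP.{u} p a' b) :
    ∃ v : A, ∀ g ∈ H, (g * x * g⁻¹) v ≠ v := by
  classical
  set W := ι → Multiplicative (ZMod 2) with hW
  set ρ : H →* MulAut W := permHom π with hρ
  set T' : Subgroup H := T.comap H.subtype with hT'
  have hT'n : T'.Normal := by
    constructor
    intro n hn g
    show ((g * n * g⁻¹ : H) : MulAut A) ∈ T
    exact hTn _ g.2 _ hn
  have hT'p : IsPGroup p T' := hTp.comap_of_injective H.subtype H.subtype_injective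
  let xH : H := ⟨x, hTle hx⟩
  have hxT' : xH ∈ T' := hx
  let c : Multiplicative (ZMod 2) := Multiplicative.ofAdd 1
  have hc : c ≠ 1 := by decide
  have hval : ∀ d : Multiplicative (ZMod 2), d = 1 ∨ d = c := by decide
  have hρx : ρ xH ≠ 1 := by
    intro h
    let f : W := fun i => if i = i₀ then c else 1
    have h1 : ρ xH f = f := by rw [h]; rfl
    have h2 : ρ xH f (π xH i₀) = f (π xH i₀) := by rw [h1]
    rw [permHom_apply] at h2
    have h3 : (π xH)⁻¹ (π xH i₀) = i₀ := by simp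
    rw [h3] at h2
    have h4 : f i₀ = c := by simp [f]
    have h5 : f (π xH i₀) = 1 := if_neg hxi
    rw [h4, h5] at h2
    exact hc h2
  have hcard : Nat.card W = 2 ^ Nat.card ι := by
    rw [hW, Nat.card_fun]
    congr 1
    rw [Nat.card_congr Multiplicative.toAdd, Nat.card_zmod]
  have hcop : Nat.Coprime p (Nat.card W) := by
    rw [hcard]
    exact Nat.Coprime.pow_right _ ((Nat.coprime_primes hpp Nat.prime_two).mpr hp2)
  have hlt : Nat.card (T'.map ρ) < Nat.card T := by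
    obtain ⟨t, ht, ht1, ht2⟩ := hker
    have hinj : Function.Injective (fun s : T' => (⟨(s : H), s.2⟩ : T)) := by
      intro a b h
      exact Subtype.ext (Subtype.ext (congrArg (fun s : T => (s : MulAut A)) h))
    have hsurj : Function.Surjective (fun s : T' => (⟨(s : H), s.2⟩ : T)) := by
      intro s
      exact ⟨⟨⟨s, hTle s.2⟩, s.2⟩, rfl⟩
    have h1 : Nat.card T' = Nat.card T := Nat.card_congr (Equiv.ofBijective _ ⟨hinj, hsurj⟩)
    rw [← h1]
    by_contra hcon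
    push Not at hcon
    have h2 := (ρ.subgroupMap_surjective T').bijective_of_nat_card_le hcon
    have h3 : ρ.subgroupMap T' ⟨⟨t, hTle ht⟩, ht⟩ = ρ.subgroupMap T' 1 := by
      apply Subtype.ext
      show permHom π ⟨t, hTle ht⟩ = ρ 1
      rw [map_one]
      ext f i
      rw [permHom_apply, ht2]
      simp
    have h4 := h2.1 h3
    apply ht1
    have h5 := congrArg (fun s : T' => ((s : H) : MulAut A)) h4
    exact h5
  obtain ⟨f₀, hf₀⟩ := IH _ hlt (Nat.card W) W H ρ T' hT'n hT'p xH hxT' hρx hcop le_rfl le_rfl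
  have huch : ∀ i, ∃ u ∈ B i, u ≠ 1 := hne
  choose w hw hw1 using huch
  let F : ι → A := fun i => if f₀ i = 1 then 1 else w i
  have hFmem : ∀ i, F i ∈ B i := by
    intro i
    by_cases h : f₀ i = 1
    · simp only [F, h, if_true]
      exact one_mem _
    · simp only [F, h, if_false]
      exact hw i
  have hFone : ∀ i, F i = 1 ↔ f₀ i = 1 := by
    intro i
    by_cases h : f₀ i = 1
    · simp [F, h]
    · simp [F, h, hw1]
  refine ⟨∏ i, F i, ?_⟩
  intro g hg hfix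
  let gH : H := ⟨g, hg⟩
  let yH : H := gH * xH * gH⁻¹
  have hy : (yH : MulAut A) = g * x * g⁻¹ := rfl
  have hcomp := comp_unique B hind (yH : MulAut A) (π yH) (fun i u hu => hB yH i u hu) F hFmem
    (by rw [hy]; exact hfix)
  apply hf₀ gH
  ext i
  show f₀ ((π yH)⁻¹ i) = f₀ i
  have h1 := hcomp ((π yH)⁻¹ i)
  have h2 : π yH ((π yH)⁻¹ i) = i := by simp
  rw [h2] at h1
  have h3 : F ((π yH)⁻¹ i) = 1 ↔ F i = 1 := by
    rw [← h1]
    constructor
    · intro h
      rw [h, map_one]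
    · intro h
      have h4 : (yH : MulAut A) (F ((π yH)⁻¹ i)) = (yH : MulAut A) 1 := by rw [h, map_one]
      exact (yH : MulAut A).injective h4
  rw [hFone, hFone] at h3
  rcases hval (f₀ i) with h4 | h4
  · rw [h4]
    exact h3.mpr h4
  · have h5 : f₀ ((π yH)⁻¹ i) ≠ 1 := by
      intro h6
      have h7 := h3.mp h6
      rw [h4] at h7
      exact hc h7
    rcases hval (f₀ ((π yH)⁻¹ i)) with h6 | h6
    · exact absurd h6 h5
    · rw [h6, h4]

/-- **Block lemma.** -/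
theorem block_lemma {ι : Type u} [Fintype ι] (hpp : p.Prime) (hp2 : p ≠ 2)
    (H T : Subgroup (MulAut A))
    (π : H →* Equiv.Perm ι) (B : ι → Subgroup A)
    (hB : ∀ (g : H) (i : ι), ∀ u ∈ B i, (g : MulAut A) u ∈ B (π g i))
    (hind : ∀ f : ι → A, (∀ i, f i ∈ B i) → ∏ i, f i = 1 → ∀ i, f i = 1)
    (hspan : ∀ u : A, u ∈ ⨆ i, B i)
    (hne : ∀ i, ∃ u ∈ B i, u ≠ 1) (hprop : ∀ i, B i ≠ ⊤)
    (hTle : T ≤ H) (hTn : ∀ g ∈ H, ∀ t ∈ T, g * t * g⁻¹ ∈ T) (hTp : IsPGroup p T)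
    {x : MulAut A} (hx : x ∈ T) (hx1 : x ≠ 1) (hcop : Nat.Coprime p (Nat.card A))
    (hker : ∃ (t : MulAut A) (ht : t ∈ T), t ≠ 1 ∧ π ⟨t, hTle ht⟩ = 1)
    (IHa : ∀ a' < Nat.card T, ∀ b, AvoidP.{u} p a' b)
    (IHb : ∀ b' < Nat.card A, AvoidP.{u} p (Nat.card T) b') :
    ∃ v : A, ∀ g ∈ H, (g * x * g⁻¹) v ≠ v := by
  by_cases hcase : ∃ i₁, π ⟨x, hTle hx⟩ i₁ = i₁ ∧ ∃ u ∈ B i₁, x u ≠ u
  · obtain ⟨i₁, h1, h2⟩ := hcase
    have hlt : Nat.card (B i₁) < Nat.card A := by
      have h3 : B i₁ < ⊤ := lt_top_iff_ne_top.mpr (hprop i₁)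
      have h4 := card_lt_of_lt h3
      rwa [Subgroup.card_top] at h4
    exact block_a H T π B hB hind hTle hTn hTp hx hcop i₁ h1 h2 (IHb _ hlt)
  · push Not at hcase
    by_cases hmv : ∃ i₀, π ⟨x, hTle hx⟩ i₀ ≠ i₀
    · obtain ⟨i₀, h0⟩ := hmv
      exact block_b hpp hp2 H T π B hB hind hne hTle hTn hTp hx i₀ h0 hker IHa
    · push Not at hmv
      exfalso
      apply hx1
      ext u
      have h1 : (⨆ i, B i) ≤ Fe x := iSup_le fun i u hu => hcase i (hmv i) u hu
      exact h1 (hspan u)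

end Block

end Cfsg.Agent.Lib.LinAvoid
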