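import Mathlib
import Cfsg.Agent.Lib.LinAvoid.Basic

/-!
# A regular vector for groups of exponent `p`, class two, with a fixed-point-free central element
-/

set_option autoImplicit false
set_option linter.unusedSectionVars false
set_option linter.unusedVariables false
set_option linter.style.haveILetI false

namespace Cfsg.Agent.Lib.LinAvoid

open Subgroup

variable {A : Type*} [CommGroup A] {p : ℕ} [hp : Fact p.Prime]

theorem pow_fix {w : MulAut A} {u : A} (h : w u = u) (k : ℕ) : (w ^ k) u = u := by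
  induction k with
  | zero => simp
  | succ k ih => rw [pow_succ', MulAut.mul_apply, ih, h]

theorem val_one_eq : (1 : ZMod p).val = 1 := by
  haveI : Fact (1 < p) := ⟨hp.out.one_lt⟩
  exact ZMod.val_one p

/-- Fixing a nontrivial power of `z` implies fixing `z`. -/
theorem fix_of_pow_fix {z : MulAut A} (hzp : z ^ p = 1) {m : ℕ} {u : A} (h : (z ^ m) u = u)
    (hne : z ^ m ≠ 1) : z u = u := by
  set i : ZMod p := (m : ZMod p) with hi
  have h1 : z ^ i.val = z ^ m := pow_natCast_val hzp m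
  have hi0 : i ≠ 0 := by
    intro h0
    apply hne
    rw [← h1, h0]
    simp
  have h2 : z = (z ^ i.val) ^ (i⁻¹).val := by
    rw [← pow_val_mul hzp, mul_inv_cancel₀ hi0, val_one_eq, pow_one]
  rw [h2, h1]
  exact pow_fix h _

theorem Sp_one (w : MulAut A) : Sp p w (1 : A) = 1 := by
  unfold Sp
  simp

theorem Sp_prod {ι : Type*} [Fintype ι] (w : MulAut A) (f : ι → A) :
    Sp p w (∏ i, f i) = ∏ i, Sp p w (f i) := by
  unfold Sp
  simp only [map_prod]
  rw [Finset.prod_comm]

section Decomp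

variable {a z : MulAut A} {U : Subgroup A}

/-- The blocks. -/
def Ui (p : ℕ) [Fact p.Prime] (U : Subgroup A) (a z : MulAut A) (i : ZMod p) : Subgroup A :=
  U ⊓ Fe (a * z ^ i.val)

theorem mem_Ui {i : ZMod p} {u : A} : u ∈ Ui p U a z i ↔ u ∈ U ∧ (a * z ^ i.val) u = u := Iff.rfl

theorem b_pow (hac : a * z = z * a) (hzp : z ^ p = 1) (hap : a ^ p = 1) (i : ZMod p) :
    (a * z ^ i.val) ^ p = 1 := by
  have hc : Commute a z := hac
  rw [(hc.pow_right i.val).mul_pow, hap, ← pow_mul, mul_comm, pow_mul, hzp]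
  simp

theorem b_inv (hUa : ∀ u ∈ U, a u ∈ U) (hUz : ∀ u ∈ U, z u ∈ U) (i : ZMod p) :
    ∀ u ∈ U, (a * z ^ i.val) u ∈ U := by
  intro u hu
  rw [MulAut.mul_apply]
  exact hUa _ (mem_of_mem_pow hUz _ hu)

theorem Sp_z_eq_one (hzp : z ^ p = 1) (hUz : ∀ u ∈ U, z u ∈ U)
    (hfpf : ∀ u ∈ U, z u = u → u = 1) {u : A} (hu : u ∈ U) : Sp p z u = 1 :=
  hfpf _ (Sp_mem hUz hu) (Sp_fixed hzp u)

theorem Sp_mem_Ui (hac : a * z = z * a) (hzp : z ^ p = 1) (hap : a ^ p = 1)
    (hUa : ∀ u ∈ U, a u ∈ U) (hUz : ∀ u ∈ U, z u ∈ U) (i : ZMod p) {u : A} (hu : u ∈ U) :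
    Sp p (a * z ^ i.val) u ∈ Ui p U a z i :=
  ⟨Sp_mem (b_inv hUa hUz i) hu, Sp_fixed (b_pow hac hzp hap i) u⟩

/-- Spanning. -/
theorem Ui_span (hac : a * z = z * a) (hzp : z ^ p = 1)
    (hUz : ∀ u ∈ U, z u ∈ U) (hfpf : ∀ u ∈ U, z u = u → u = 1) {u : A} (hu : u ∈ U) :
    u ^ p = ∏ i : ZMod p, Sp p (a * z ^ i.val) u := by
  rw [prod_Sp_mul_pow hac hzp, Sp_z_eq_one hzp hUz hfpf hu]
  simp

/-- Independence. -/
theorem Ui_indep [Finite A] (hcop : Nat.Coprime p (Nat.card A)) (hac : a * z = z * a)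
    (hzp : z ^ p = 1) (hUz : ∀ u ∈ U, z u ∈ U) (hfpf : ∀ u ∈ U, z u = u → u = 1)
    (f : ZMod p → A) (hf : ∀ i, f i ∈ Ui p U a z i) (h : ∏ i, f i = 1) : ∀ i, f i = 1 := by
  intro j
  have hc : Commute a z := hac
  have h0 : ∀ i, i ≠ j → Sp p (a * z ^ j.val) (f i) = 1 := by
    intro i hij
    have hji : j - i ≠ 0 := sub_ne_zero.mpr (Ne.symm hij)
    have hc2 : Commute (z ^ (j - i).val) (a * z ^ i.val) :=
      ((hc.pow_right _).symm).mul_right (Commute.pow_pow_self z _ _)
    have hb : a * z ^ j.val = z ^ (j - i).val * (a * z ^ i.val) := by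
      have : z ^ j.val = z ^ i.val * z ^ (j - i).val := by
        rw [← pow_val_add hzp]
        simp
      rw [this, ← mul_assoc]
      exact hc2.symm.eq
    have hfix : (a * z ^ i.val) (f i) = f i := (hf i).2
    have h4 : Sp p (a * z ^ j.val) (f i) = Sp p (z ^ (j - i).val) (f i) := by
      unfold Sp
      refine Finset.prod_congr rfl ?_
      intro k _
      rw [hb, hc2.mul_pow, MulAut.mul_apply, pow_fix hfix]
    rw [h4, Sp_pow hzp hji]
    exact Sp_z_eq_one hzp hUz hfpf (hf i).1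
  have h1 : Sp p (a * z ^ j.val) (∏ i, f i) = (f j) ^ p := by
    rw [Sp_prod, Finset.prod_eq_single j]
    · exact Sp_of_fixed (hf j).2
    · intro i _ hij
      exact h0 i hij
    · simp
  rw [h, Sp_one] at h1
  exact eq_one_of_pow_coprime hcop h1.symm

end Decomp

/-- **Regular vector.** -/
theorem exists_regular [Finite A] (hp2 : p ≠ 2) (hcop : Nat.Coprime p (Nat.card A))
    (z : MulAut A) (hzp : z ^ p = 1) :
    ∀ (n : ℕ) (C : Subgroup (MulAut A)) (U : Subgroup A), Nat.card C + Nat.card U ≤ n →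
      z ∈ C → (∀ t ∈ C, t ^ p = 1) → (∀ t ∈ C, t * z = z * t) →
      (∀ s ∈ C, ∀ t ∈ C, ∃ m : ℕ, s * t * s⁻¹ * t⁻¹ = z ^ m) →
      (∀ t ∈ C, ∀ u ∈ U, t u ∈ U) → (∀ u ∈ U, z u = u → u = 1) →
      ∃ v ∈ U, ∀ t ∈ C, t v = v → ∀ u ∈ U, t u = u := by
  intro n
  induction n using Nat.strong_induction_on with
  | _ n IH =>
  intro C U hn hzC hexp hcz hcomm hinv hfpf
  by_cases hU : ∀ u ∈ U, u = 1
  · refine ⟨1, one_mem _, ?_⟩
    intro t _ _ u hu
    rw [hU u hu]
    simp
  push Not at hU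
  obtain ⟨u₀, hu₀, hne⟩ := hU
  have hUz : ∀ u ∈ U, z u ∈ U := hinv z hzC
  by_cases hAll : ∀ a ∈ C, ∃ m : ℕ, ∀ u ∈ U, (a * z ^ m) u = u
  · refine ⟨u₀, hu₀, ?_⟩
    intro t ht hfix u hu
    obtain ⟨m, hm⟩ := hAll t ht
    have hc : Commute t z := hcz t ht
    have h1 : (z ^ m) u₀ = u₀ := by
      have h2 := hm u₀ hu₀
      rw [(hc.pow_right m).eq, MulAut.mul_apply, hfix] at h2
      exact h2
    have h3 : z ^ m = 1 := by
      by_contra h4
      exact hne (hfpf u₀ hu₀ (fix_of_pow_fix hzp h1 h4))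
    have h5 := hm u hu
    rwa [h3, mul_one] at h5
  push Not at hAll
  obtain ⟨a, haC, ha⟩ := hAll
  have hac : a * z = z * a := hcz a haC
  have hc : Commute a z := hac
  have hap : a ^ p = 1 := hexp a haC
  have hUa : ∀ u ∈ U, a u ∈ U := hinv a haC
  set b : ZMod p → MulAut A := fun i => a * z ^ i.val with hb
  have hspan : ∀ u ∈ U, u ^ p = ∏ i : ZMod p, Sp p (b i) u := fun u hu =>
    Ui_span hac hzp hUz hfpf hu
  have hmem : ∀ i, ∀ u ∈ U, Sp p (b i) u ∈ Ui p U a z i := fun i u hu =>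
    Sp_mem_Ui hac hzp hap hUa hUz i hu
  have hind := Ui_indep (U := U) hcop hac hzp hUz hfpf
  -- acting on all blocks trivially forces acting trivially
  have htriv : ∀ t : MulAut A, (∀ i, ∀ u ∈ Ui p U a z i, t u = u) → ∀ u ∈ U, t u = u := by
    intro t ht u hu
    apply pow_coprime_inj hcop
    rw [← map_pow, hspan u hu, map_prod]
    refine Finset.prod_congr rfl ?_
    intro i _
    exact ht i _ (hmem i u hu)
  by_cases hce : ∀ e ∈ C, e * a = a * e
  · -- `a` is central: apply induction to all blocks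
    have hprop : ∀ i, Nat.card (Ui p U a z i) < Nat.card U := by
      intro i
      apply card_lt_of_lt
      refine lt_of_le_of_ne inf_le_left ?_
      intro h
      obtain ⟨u, hu, hu2⟩ := ha i.val
      have h1 : u ∈ Ui p U a z i := by rw [h]; exact hu
      exact hu2 h1.2
    have hIH : ∀ i, ∃ v ∈ Ui p U a z i, ∀ t ∈ C, t v = v → ∀ u ∈ Ui p U a z i, t u = u := by
      intro i
      refine IH (Nat.card C + Nat.card (Ui p U a z i)) ?_ C (Ui p U a z i) le_rfl hzC hexp hcz hcomm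
        ?_ ?_
      · have := hprop i
        omega
      · intro t ht u hu
        refine ⟨hinv t ht u hu.1, ?_⟩
        have h1 : Commute t (a * z ^ i.val) := by
          have h2 : Commute t a := hce t ht
          have h3 : Commute t z := hcz t ht
          exact h2.mul_right (h3.pow_right _)
        have hu2 : (a * z ^ i.val) u = u := hu.2
        show (a * z ^ i.val) (t u) = t u
        rw [← MulAut.mul_apply, ← h1.eq, MulAut.mul_apply, hu2]
      · intro u hu hzu
        exact hfpf u hu.1 hzu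
    choose v hv hv2 using hIH
    refine ⟨∏ i, v i, prod_mem fun i _ => (hv i).1, ?_⟩
    intro t ht hfix
    apply htriv t
    intro i
    have hinvi : ∀ i, ∀ u ∈ Ui p U a z i, t u ∈ Ui p U a z i := by
      intro i u hu
      refine ⟨hinv t ht u hu.1, ?_⟩
      have h1 : Commute t (a * z ^ i.val) := by
        have h2 : Commute t a := hce t ht
        have h3 : Commute t z := hcz t ht
        exact h2.mul_right (h3.pow_right _)
      have hu2 : (a * z ^ i.val) u = u := hu.2
      show (a * z ^ i.val) (t u) = t u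
      rw [← MulAut.mul_apply, ← h1.eq, MulAut.mul_apply, hu2]
    have h1 := comp_unique (Ui p U a z) hind t (1 : Equiv.Perm (ZMod p)) (by simpa using hinvi) v hv hfix
    exact hv2 i t ht (by simpa using h1 i)
  · -- `a` is not central
    push Not at hce
    obtain ⟨e, heC, hea⟩ := hce
    obtain ⟨m₀, hm₀⟩ := hcomm e heC a haC
    set i₀ : ZMod p := (m₀ : ZMod p) with hi₀
    have he1 : e * a * e⁻¹ = b i₀ := by
      have h1 : z ^ i₀.val = z ^ m₀ := pow_natCast_val hzp m₀
      show e * a * e⁻¹ = a * z ^ i₀.val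
      rw [h1, (hc.pow_right m₀).eq, ← hm₀]
      group
    have hi₀0 : i₀ ≠ 0 := by
      intro h0
      apply hea
      have h1 : e * a * e⁻¹ = a := by
        rw [he1, hb]
        simp [h0]
      have h2 : e * a = (e * a * e⁻¹) * e := by group
      rw [h2, h1]
    have hcze : Commute e z := hcz e heC
    -- conjugates of `a`
    have hconj : ∀ k : ℕ, e ^ k * a * (e ^ k)⁻¹ = b ((k : ZMod p) * i₀) := by
      intro k
      induction k with
      | zero =>
        simp [hb]
      | succ k ih =>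
        have h1 : e ^ (k + 1) * a * (e ^ (k + 1))⁻¹ = e * (e ^ k * a * (e ^ k)⁻¹) * e⁻¹ := by
          rw [pow_succ']
          group
        rw [h1, ih]
        have h2 : e * b ((k : ZMod p) * i₀) * e⁻¹ = (e * a * e⁻¹) * z ^ ((k : ZMod p) * i₀).val := by
          show e * (a * z ^ ((k : ZMod p) * i₀).val) * e⁻¹ = _
          have h3 : Commute e (z ^ ((k : ZMod p) * i₀).val) := hcze.pow_right _
          calc e * (a * z ^ ((k : ZMod p) * i₀).val) * e⁻¹
              = e * a * (z ^ ((k : ZMod p) * i₀).val * e⁻¹) := by group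
            _ = e * a * (e⁻¹ * z ^ ((k : ZMod p) * i₀).val) := by
                rw [(h3.inv_left).eq]
            _ = _ := by group
        rw [h2, he1]
        show a * z ^ i₀.val * z ^ ((k : ZMod p) * i₀).val = a * z ^ ((((k + 1 : ℕ) : ZMod p) * i₀)).val
        rw [mul_assoc, ← pow_val_add hzp]
        congr 3
        push_cast
        ring
    set C₀ : Subgroup (MulAut A) := C ⊓ centralizer {a} with hC₀
    have hmemC₀ : ∀ {t}, t ∈ C₀ ↔ t ∈ C ∧ t * a = a * t := by
      intro t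
      rw [hC₀, mem_inf, mem_centralizer_singleton_iff]
    set U₀ : Subgroup A := Ui p U a z 0 with hU₀
    have hb0 : b 0 = a := by simp [hb]
    have hmemU₀ : ∀ {u}, u ∈ U₀ ↔ u ∈ U ∧ a u = u := by
      intro u
      rw [hU₀, mem_Ui]
      simp
    have hC₀lt : Nat.card C₀ < Nat.card C := by
      apply card_lt_of_lt
      refine lt_of_le_of_ne inf_le_left ?_
      intro h
      have h1 : e ∈ C₀ := h ▸ heC
      exact hea (hmemC₀.mp h1).2
    have hU₀le : Nat.card U₀ ≤ Nat.card U := card_le_of_le inf_le_left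
    obtain ⟨v₀, hv₀, hv₀2⟩ : ∃ v ∈ U₀, ∀ t ∈ C₀, t v = v → ∀ u ∈ U₀, t u = u := by
      refine IH (Nat.card C₀ + Nat.card U₀) ?_ C₀ U₀ le_rfl (hmemC₀.mpr ⟨hzC, hac.symm⟩)
        (fun t ht => hexp t (hmemC₀.mp ht).1) (fun t ht => hcz t (hmemC₀.mp ht).1)
        (fun s hs t ht => hcomm s (hmemC₀.mp hs).1 t (hmemC₀.mp ht).1) ?_ ?_
      · omega
      · intro t ht u hu
        have hu' := hmemU₀.mp hu
        refine hmemU₀.mpr ⟨hinv t (hmemC₀.mp ht).1 u hu'.1, ?_⟩
        rw [← MulAut.mul_apply, ← (hmemC₀.mp ht).2, MulAut.mul_apply, hu'.2]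
      · intro u hu hzu
        exact hfpf u (hmemU₀.mp hu).1 hzu
    -- moving the blocks by powers of `e`
    have hmove : ∀ (k : ℕ) (u : A), u ∈ Ui p U a z ((k : ZMod p) * i₀) → ((e ^ k)⁻¹) u ∈ U₀ := by
      intro k u hu
      refine hmemU₀.mpr ⟨?_, ?_⟩
      · have h1 : ∀ g ∈ C, ∀ u ∈ U, g u ∈ U := hinv
        exact hinv _ (inv_mem (pow_mem heC k)) u hu.1
      · have h1 : (b ((k : ZMod p) * i₀)) u = u := hu.2
        rw [← hconj k] at h1
        have h2 : (e ^ k * a * (e ^ k)⁻¹) u = (e ^ k) (a (((e ^ k)⁻¹) u)) := rfl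
        rw [h2] at h1
        have h4 : (e ^ k) (((e ^ k)⁻¹) u) = u := by simp
        apply (e ^ k).injective
        rw [h1, h4]
    -- every index is a multiple of `i₀`
    have hidx : ∀ i : ZMod p, ∃ k : ℕ, (k : ZMod p) * i₀ = i := by
      intro i
      refine ⟨(i * i₀⁻¹).val, ?_⟩
      rw [ZMod.natCast_val, ZMod.cast_id', id, mul_assoc, inv_mul_cancel₀ hi₀0, mul_one]
    have hU₀ne : ∃ u ∈ U₀, u ≠ 1 := by
      by_contra hcon
      push Not at hcon
      apply hne
      apply eq_one_of_pow_coprime hcop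
      rw [hspan u₀ hu₀]
      refine Finset.prod_eq_one ?_
      intro i _
      obtain ⟨k, hk⟩ := hidx i
      have h1 : Sp p (b i) u₀ ∈ Ui p U a z ((k : ZMod p) * i₀) := by
        rw [hk]; exact hmem i u₀ hu₀
      have h2 := hcon _ (hmove k _ h1)
      have h3 := congrArg (e ^ k) h2
      simpa using h3
    have hv₀ne : v₀ ≠ 1 := by
      intro h0
      obtain ⟨u, hu, hu1⟩ := hU₀ne
      have h1 := hv₀2 z (hmemC₀.mpr ⟨hzC, hac.symm⟩) (by rw [h0]; simp) u hu
      exact hu1 (hfpf u (hmemU₀.mp hu).1 h1)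
    set v₁ : A := e v₀ with hv₁
    have hv₁mem : v₁ ∈ Ui p U a z i₀ := by
      have hv₀' := hmemU₀.mp hv₀
      refine ⟨hinv e heC _ hv₀'.1, ?_⟩
      have h1 : (e * a * e⁻¹) v₁ = v₁ := by
        show e (a (e⁻¹ (e v₀))) = e v₀
        simp [hv₀'.2]
      rw [he1] at h1
      exact h1
    have hv₁ne : v₁ ≠ 1 := by
      intro h0
      apply hv₀ne
      have : e v₀ = e 1 := by rw [map_one]; exact h0
      exact e.injective this
    refine ⟨v₀ * v₁, mul_mem (hmemU₀.mp hv₀).1 hv₁mem.1, ?_⟩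
    intro t ht hfix
    obtain ⟨m₁, hm₁⟩ := hcomm t ht a haC
    set n₁ : ZMod p := (m₁ : ZMod p) with hn₁
    have hcztn : Commute t z := hcz t ht
    have ht1 : t * a * t⁻¹ = b n₁ := by
      have h1 : z ^ n₁.val = z ^ m₁ := pow_natCast_val hzp m₁
      show t * a * t⁻¹ = a * z ^ n₁.val
      rw [h1, (hc.pow_right m₁).eq, ← hm₁]
      group
    -- action on blocks
    have htb : ∀ i, ∀ u ∈ Ui p U a z i, t u ∈ Ui p U a z (Equiv.addLeft n₁ i) := by
      intro i u hu
      refine ⟨hinv t ht u hu.1, ?_⟩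
      have h1 : (a * z ^ i.val) u = u := hu.2
      show (a * z ^ (n₁ + i).val) (t u) = t u
      have h2 : a * z ^ (n₁ + i).val = t * (a * z ^ i.val) * t⁻¹ := by
        rw [pow_val_add hzp, ← mul_assoc]
        have h3 : a * z ^ n₁.val = t * a * t⁻¹ := ht1.symm
        rw [h3]
        have h4 : Commute t (z ^ i.val) := hcztn.pow_right _
        calc t * a * t⁻¹ * z ^ i.val = t * a * (t⁻¹ * z ^ i.val) := by group
          _ = t * a * (z ^ i.val * t⁻¹) := by rw [(h4.inv_left).eq]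
          _ = _ := by group
      rw [h2]
      show t ((a * z ^ i.val) (t⁻¹ (t u))) = t u
      simp [h1]
    classical
    set f : ZMod p → A := fun i => if i = 0 then v₀ else if i = i₀ then v₁ else 1 with hf
    have hf0 : f 0 = v₀ := by simp [hf]
    have hfi₀ : f i₀ = v₁ := by simp [hf, hi₀0]
    have hfo : ∀ i, i ≠ 0 → i ≠ i₀ → f i = 1 := by
      intro i h1 h2
      simp [hf, h1, h2]
    have hfmem : ∀ i, f i ∈ Ui p U a z i := by
      intro i
      by_cases h1 : i = 0
      · subst h1; rw [hf0]; exact hv₀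
      by_cases h2 : i = i₀
      · subst h2; rw [hfi₀]; exact hv₁mem
      · rw [hfo i h1 h2]; exact one_mem _
    have hprodf : ∏ i, f i = v₀ * v₁ := by
      rw [Finset.prod_eq_mul 0 i₀ (Ne.symm hi₀0), hf0, hfi₀]
      · intro c _ hc
        exact hfo c hc.1 hc.2
      · simp
      · simp
    have hcomp := comp_unique (Ui p U a z) hind t (Equiv.addLeft n₁) htb f hfmem (by rw [hprodf]; exact hfix)
    have ht_ne : ∀ {u : A}, u ≠ 1 → t u ≠ 1 := by
      intro u hu h0
      apply hu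
      have : t u = t 1 := by rw [map_one]; exact h0
      exact t.injective this
    have hn0 : n₁ = 0 := by
      by_contra hn
      have h1 := hcomp 0
      rw [hf0] at h1
      have h2 : f (n₁ + 0) ≠ 1 := by
        rw [← show t v₀ = f (n₁ + 0) from h1]
        exact ht_ne hv₀ne
      have h3 : n₁ = i₀ := by
        by_contra h4
        apply h2
        rw [add_zero]
        exact hfo n₁ hn h4
      have h5 := hcomp i₀
      rw [hfi₀] at h5
      have h6 : f (n₁ + i₀) ≠ 1 := by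
        rw [← show t v₁ = f (n₁ + i₀) from h5]
        exact ht_ne hv₁ne
      apply h6
      rw [h3]
      have h20 : (2 : ZMod p) ≠ 0 := by
        intro h
        have : ((2 : ℕ) : ZMod p) = 0 := by exact_mod_cast h
        rw [ZMod.natCast_eq_zero_iff] at this
        have := (Nat.prime_dvd_prime_iff_eq hp.out Nat.prime_two).mp this
        exact hp2 this
      apply hfo
      · rw [← two_mul]
        exact mul_ne_zero h20 hi₀0
      · intro h
        exact hi₀0 (by simpa using h)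
    have hta : t * a = a * t := by
      have h1 : t * a * t⁻¹ = a := by rw [ht1, hn0]; exact hb0
      have h2 : t * a = (t * a * t⁻¹) * t := by group
      rw [h2, h1]
    have htC₀ : t ∈ C₀ := hmemC₀.mpr ⟨ht, hta⟩
    have hfixv₀ : t v₀ = v₀ := by
      have h1 : t (f 0) = f (n₁ + 0) := hcomp 0
      rwa [hn0, add_zero, hf0] at h1
    have hfixv₁ : t v₁ = v₁ := by
      have h1 : t (f i₀) = f (n₁ + i₀) := hcomp i₀
      rwa [hn0, zero_add, hfi₀] at h1
    have htU₀ := hv₀2 t htC₀ hfixv₀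
    obtain ⟨m₂, hm₂⟩ := hcomm e⁻¹ (inv_mem heC) t ht
    have ht' : e⁻¹ * t * e = z ^ m₂ * t := by
      rw [← hm₂]
      group
    have ht'C₀ : e⁻¹ * t * e ∈ C₀ := by
      refine hmemC₀.mpr ⟨mul_mem (mul_mem (inv_mem heC) ht) heC, ?_⟩
      rw [ht']
      have h1 : Commute (z ^ m₂ * t) a := ((hc.pow_right m₂).symm).mul_left hta
      exact h1.eq
    have hfix' : (e⁻¹ * t * e) v₀ = v₀ := by
      show e⁻¹ (t (e v₀)) = v₀
      rw [← hv₁, hfixv₁, hv₁]
      simp
    have htU₀' := hv₀2 _ ht'C₀ hfix'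
    obtain ⟨u, hu, hu1⟩ := hU₀ne
    have hz1 : z ^ m₂ = 1 := by
      by_contra hz
      have h1 := htU₀' u hu
      rw [ht', MulAut.mul_apply, htU₀ u hu] at h1
      exact hu1 (hfpf u (hmemU₀.mp hu).1 (fix_of_pow_fix hzp h1 hz))
    have hte : t * e = e * t := by
      rw [hz1, one_mul] at ht'
      have h1 : e * (e⁻¹ * t * e) = e * t := by rw [ht']
      rw [← h1]
      group
    apply htriv t
    intro i w hw
    obtain ⟨k, hk⟩ := hidx i
    rw [← hk] at hw
    have h2 := htU₀ _ (hmove k w hw)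
    have hcek : Commute t ((e ^ k)⁻¹) := ((Commute.pow_right hte k)).inv_right
    have h3 : ((e ^ k)⁻¹) (t w) = ((e ^ k)⁻¹) w := by
      rw [← MulAut.mul_apply, ← hcek.eq, MulAut.mul_apply, h2]
    exact ((e ^ k)⁻¹).injective h3

end Cfsg.Agent.Lib.LinAvoid
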