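import Mathlib
import Cfsg.Agent.Lib.LinAvoid.Basic
import Cfsg.Agent.Lib.LinAvoid.Block

/-!
# The norm of a finite group of automorphisms and the splitting step
-/

set_option autoImplicit false
set_option linter.unusedSectionVars false
set_option linter.unusedVariables false
set_option linter.style.haveILetI false

universe u

namespace Cfsg.Agent.Lib.LinAvoid

open Subgroup

variable {A : Type u} [CommGroup A]

/-- Stabilizer of a vector. -/
def Stb (v : A) : Subgroup (MulAut A) where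
  carrier := {a | a v = v}
  mul_mem' := by
    intro a b ha hb
    have ha' : a v = v := ha
    have hb' : b v = v := hb
    show (a * b) v = v
    rw [MulAut.mul_apply, hb', ha']
  one_mem' := rfl
  inv_mem' := by
    intro a ha
    have ha' : a v = v := ha
    show a⁻¹ v = v
    conv_lhs => rw [← ha']
    exact MulAut.inv_apply_self A a v

theorem mem_Stb {a : MulAut A} {v : A} : a ∈ Stb v ↔ a v = v := Iff.rfl

theorem mem_Fx_iff_le {L : Subgroup (MulAut A)} {v : A} : v ∈ Fx L ↔ L ≤ Stb v := Iff.rfl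

theorem mem_Fx_sup {L : Subgroup (MulAut A)} {z : MulAut A} {v : A} :
    v ∈ Fx (L ⊔ zpowers z) ↔ v ∈ Fx L ∧ z v = v := by
  rw [mem_Fx_iff_le, mem_Fx_iff_le, sup_le_iff, zpowers_le]
  rfl

variable [Finite A]

/-- The norm. -/
noncomputable def Nm (F : Subgroup (MulAut A)) (u : A) : A :=
  letI := Fintype.ofFinite F
  ∏ w : F, (w : MulAut A) u

theorem Nm_mem_Fx (F : Subgroup (MulAut A)) (u : A) : Nm F u ∈ Fx F := by
  intro a ha
  unfold Nm
  letI := Fintype.ofFinite F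
  rw [map_prod]
  exact Fintype.prod_equiv (Equiv.mulLeft (⟨a, ha⟩ : F)) _ _ (fun w => rfl)

theorem Nm_of_mem {F : Subgroup (MulAut A)} {u : A} (hu : u ∈ Fx F) : Nm F u = u ^ Nat.card F := by
  unfold Nm
  letI := Fintype.ofFinite F
  have h1 : ∀ w : F, (w : MulAut A) u = u := fun w => hu w w.2
  simp only [h1, Finset.prod_const, Finset.card_univ]
  rw [Nat.card_eq_fintype_card]

theorem Nm_mul (F : Subgroup (MulAut A)) (u v : A) : Nm F (u * v) = Nm F u * Nm F v := by
  unfold Nm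
  letI := Fintype.ofFinite F
  simp only [map_mul, Finset.prod_mul_distrib]

theorem Nm_one (F : Subgroup (MulAut A)) : Nm F (1 : A) = 1 := by
  unfold Nm
  letI := Fintype.ofFinite F
  simp

theorem Nm_inv (F : Subgroup (MulAut A)) (u : A) : Nm F u⁻¹ = (Nm F u)⁻¹ := by
  unfold Nm
  letI := Fintype.ofFinite F
  simp only [map_inv, Finset.prod_inv_distrib]

theorem Nm_pow (F : Subgroup (MulAut A)) (u : A) (n : ℕ) : Nm F (u ^ n) = (Nm F u) ^ n := by
  unfold Nm
  letI := Fintype.ofFinite F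
  simp only [map_pow, Finset.prod_pow]

theorem Nm_prod {ι : Type*} [Fintype ι] (F : Subgroup (MulAut A)) (f : ι → A) :
    Nm F (∏ i, f i) = ∏ i, Nm F (f i) := by
  unfold Nm
  letI := Fintype.ofFinite F
  simp only [map_prod]
  rw [Finset.prod_comm]

theorem Nm_conj {F : Subgroup (MulAut A)} {g : MulAut A} (h1 : ∀ f ∈ F, g * f * g⁻¹ ∈ F)
    (h2 : ∀ f ∈ F, g⁻¹ * f * g ∈ F) (u : A) : Nm F (g u) = g (Nm F u) := by
  unfold Nm
  letI := Fintype.ofFinite F
  rw [map_prod]
  let e : F ≃ F :=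
    { toFun := fun w => ⟨g * w * g⁻¹, h1 w w.2⟩
      invFun := fun w => ⟨g⁻¹ * w * g, h2 w w.2⟩
      left_inv := by
        intro w
        apply Subtype.ext
        show g⁻¹ * (g * w * g⁻¹) * g = w
        group
      right_inv := by
        intro w
        apply Subtype.ext
        show g * (g⁻¹ * w * g) * g⁻¹ = w
        group }
  symm
  refine Fintype.prod_equiv e _ _ ?_
  intro w
  show g ((w : MulAut A) u) = (g * w * g⁻¹) (g u)
  simp [MulAut.mul_apply]

theorem Nm_commute {F : Subgroup (MulAut A)} {a : MulAut A} (h : ∀ f ∈ F, a * f = f * a) {u : A}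
    (hu : a u = u) : a (Nm F u) = Nm F u := by
  unfold Nm
  letI := Fintype.ofFinite F
  rw [map_prod]
  refine Finset.prod_congr rfl ?_
  intro w _
  rw [← MulAut.mul_apply, h w w.2, MulAut.mul_apply, hu]

/-- The kernel of the norm. -/
noncomputable def Kn (F : Subgroup (MulAut A)) : Subgroup A where
  carrier := {v | Nm F v = 1}
  mul_mem' := by
    intro a b ha hb
    have ha' : Nm F a = 1 := ha
    have hb' : Nm F b = 1 := hb
    show Nm F (a * b) = 1
    rw [Nm_mul, ha', hb', one_mul]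
  one_mem' := Nm_one F
  inv_mem' := by
    intro a ha
    have ha' : Nm F a = 1 := ha
    show Nm F a⁻¹ = 1
    rw [Nm_inv, ha', inv_one]

theorem mem_Kn {F : Subgroup (MulAut A)} {v : A} : v ∈ Kn F ↔ Nm F v = 1 := Iff.rfl

/-- The defining decomposition. -/
theorem pow_card_mem_sup (F : Subgroup (MulAut A)) (u : A) :
    u ^ Nat.card F * (Nm F u)⁻¹ ∈ Kn F := by
  show Nm F (u ^ Nat.card F * (Nm F u)⁻¹) = 1
  rw [Nm_mul, Nm_inv, Nm_pow, Nm_of_mem (Nm_mem_Fx F u)]
  simp

/-- Independence of fixed points of a commuting family. -/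
theorem indep_fix {ι : Type*} [Fintype ι] (L : ι → Subgroup (MulAut A))
    (hcop : ∀ i, Nat.Coprime (Nat.card (L i)) (Nat.card A))
    (hcomm : ∀ i j, ∀ a ∈ L i, ∀ b ∈ L j, a * b = b * a)
    (hfix : ∀ i j, i ≠ j → ∀ u, u ∈ Fx (L i) → u ∈ Fx (L j) → u = 1)
    (f : ι → A) (hf : ∀ i, f i ∈ Fx (L i)) (h : ∏ i, f i = 1) : ∀ i, f i = 1 := by
  classical
  intro j
  have h1 : Nm (L j) (∏ i, f i) = (f j) ^ Nat.card (L j) := by
    rw [Nm_prod, Finset.prod_eq_single j]
    · exact Nm_of_mem (hf j)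
    · intro i _ hij
      apply hfix i j hij
      · intro a ha
        exact Nm_commute (fun b hb => hcomm i j a ha b hb) (hf i a ha)
      · exact Nm_mem_Fx _ _
    · simp
  rw [h, Nm_one] at h1
  exact eq_one_of_pow_coprime (hcop j) h1.symm

section Split

variable {p : ℕ}

theorem isCoprime_card_of_pgroup [Fact p.Prime] {F : Subgroup (MulAut A)} (hF : IsPGroup p F)
    (hcop : Nat.Coprime p (Nat.card A)) : Nat.Coprime (Nat.card F) (Nat.card A) := by
  obtain ⟨n, hn⟩ := IsPGroup.iff_card.mp hF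
  rw [hn]
  exact Nat.Coprime.pow_left n hcop

theorem exists_moved {F : Subgroup (MulAut A)} (hF : F ≠ ⊥) : ∃ f ∈ F, ∃ u : A, f u ≠ u := by
  obtain ⟨f, hf1⟩ := Subgroup.ne_bot_iff_exists_ne_one.mp hF
  refine ⟨f, f.2, ?_⟩
  by_contra hcon
  push Not at hcon
  apply hf1
  apply Subtype.ext
  ext u
  exact hcon u

/-- **The splitting step.** -/
theorem split_lemma [Fact p.Prime] (hpp : p.Prime) (hp2 : p ≠ 2) (H T F : Subgroup (MulAut A))
    (hFT : F ≤ T) (hF1 : F ≠ ⊥) (hFinv : ∀ g ∈ H, ∀ f ∈ F, g * f * g⁻¹ ∈ F)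
    (hfx : Fx F ≠ ⊥)
    (hTle : T ≤ H) (hTn : ∀ g ∈ H, ∀ t ∈ T, g * t * g⁻¹ ∈ T) (hTp : IsPGroup p T)
    {x : MulAut A} (hx : x ∈ T) (hx1 : x ≠ 1) (hcop : Nat.Coprime p (Nat.card A))
    (IHa : ∀ a' < Nat.card T, ∀ b, AvoidP.{u} p a' b)
    (IHb : ∀ b' < Nat.card A, AvoidP.{u} p (Nat.card T) b') :
    ∃ v : A, ∀ g ∈ H, (g * x * g⁻¹) v ≠ v := by
  classical
  have hFp : IsPGroup p F := hTp.to_le hFT
  have hcopF := isCoprime_card_of_pgroup hFp hcop
  let ι := ULift.{u} Bool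
  let B : ι → Subgroup A := fun i => if i.down then Kn F else Fx F
  have hBt : B ⟨true⟩ = Kn F := rfl
  have hBf : B ⟨false⟩ = Fx F := rfl
  have hprod : ∀ f : ι → A, ∏ i, f i = f ⟨true⟩ * f ⟨false⟩ := by
    intro f
    have h1 : ∏ i, f i = ∏ b : Bool, f ⟨b⟩ := Fintype.prod_equiv Equiv.ulift _ _ (fun _ => rfl)
    rw [h1, Fintype.prod_bool]
  obtain ⟨f₀, hf₀, u₀, hu₀⟩ := exists_moved hF1
  obtain ⟨w₀, hw₀, hw₀1⟩ : ∃ w ∈ Fx F, w ≠ 1 := by
    by_contra hcon
    push Not at hcon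
    apply hfx
    rw [eq_bot_iff]
    intro w hw
    exact hcon w hw
  have hFinv2 : ∀ g ∈ H, ∀ f ∈ F, g⁻¹ * f * g ∈ F := by
    intro g hg f hf
    have := hFinv g⁻¹ (inv_mem hg) f hf
    simpa using this
  have hspan : ∀ u : A, u ∈ ⨆ i, B i := by
    intro u
    apply mem_of_pow_mem hcopF
    have h1 : u ^ Nat.card F = (u ^ Nat.card F * (Nm F u)⁻¹) * Nm F u := by group
    rw [h1]
    refine mul_mem ?_ ?_
    · exact (le_iSup B ⟨true⟩) (pow_card_mem_sup F u)
    · exact (le_iSup B ⟨false⟩) (Nm_mem_Fx F u)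
  refine block_lemma hpp hp2 H T (1 : H →* Equiv.Perm ι) B ?_ ?_ hspan ?_ ?_ hTle hTn hTp hx hx1 hcop
    ?_ IHa IHb
  · rintro g ⟨b⟩ u hu
    cases b with
    | true =>
      show (g : MulAut A) u ∈ Kn F
      rw [mem_Kn, Nm_conj (hFinv g g.2) (hFinv2 g g.2)]
      have hu' : Nm F u = 1 := hu
      rw [hu', map_one]
    | false =>
      show (g : MulAut A) u ∈ Fx F
      intro a ha
      have h1 := hFinv2 g g.2 a ha
      have h2 : ((g : MulAut A)⁻¹ * a * g) u = u := hu _ h1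
      have h3 : (g : MulAut A) (((g : MulAut A)⁻¹ * a * g) u) = (g : MulAut A) u := by rw [h2]
      simpa [MulAut.mul_apply, MulAut.apply_inv_self] using h3
  · intro f hf h
    rw [hprod] at h
    have ht : f ⟨true⟩ ∈ Kn F := hf ⟨true⟩
    have hfl : f ⟨false⟩ ∈ Fx F := hf ⟨false⟩
    have h1 : f ⟨false⟩ = 1 := by
      apply eq_one_of_pow_coprime hcopF
      rw [← Nm_of_mem hfl]
      have h2 := congrArg (Nm F) h
      rw [Nm_mul, Nm_one, (mem_Kn.mp ht), one_mul] at h2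
      exact h2
    have h2 : f ⟨true⟩ = 1 := by
      rw [h1, mul_one] at h
      exact h
    rintro ⟨b⟩
    cases b with
    | true => exact h2
    | false => exact h1
  · rintro ⟨b⟩
    cases b with
    | true =>
      show ∃ u ∈ Kn F, u ≠ 1
      by_contra hcon
      push Not at hcon
      apply hu₀
      have h1 := hcon _ (pow_card_mem_sup F u₀)
      have h2 : u₀ ^ Nat.card F = Nm F u₀ := mul_inv_eq_one.mp h1
      have h3 : u₀ ∈ Fx F := mem_of_pow_mem hcopF (by rw [h2]; exact Nm_mem_Fx F u₀)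
      exact h3 f₀ hf₀
    | false => exact ⟨w₀, hw₀, hw₀1⟩
  · rintro ⟨b⟩
    cases b with
    | true =>
      show Kn F ≠ ⊤
      intro h
      have h1 : w₀ ∈ Kn F := by rw [h]; exact mem_top _
      have h2 : Nm F w₀ = 1 := h1
      rw [Nm_of_mem hw₀] at h2
      exact hw₀1 (eq_one_of_pow_coprime hcopF h2)
    | false =>
      show Fx F ≠ ⊤
      intro h
      have h1 : u₀ ∈ Fx F := by rw [h]; exact mem_top _
      exact hu₀ (h1 f₀ hf₀)
  · have hf01 : f₀ ≠ 1 := by
      intro h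
      apply hu₀
      rw [h]
      rfl
    exact ⟨f₀, hFT hf₀, hf01, rfl⟩

end Split

end Cfsg.Agent.Lib.LinAvoid
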