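import Mathlib
import Cfsg.Agent.Lib.LinAvoid.Split
import Cfsg.Agent.Lib.LinAvoid.Ext

/-!
# Elementary abelian normal subgroups: the hyperplane decomposition
-/

set_option autoImplicit false
set_option linter.unusedSectionVars false
set_option linter.unusedVariables false
set_option linter.style.haveILetI false

universe u

namespace Cfsg.Agent.Lib.LinAvoid

open Subgroup
open scoped Pointwise

variable {A : Type u} [CommGroup A] [Finite A]

/-- Subgroups with cyclic quotient. -/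
def Co (F : Subgroup (MulAut A)) : Set (Subgroup (MulAut A)) := {L | ∃ y, L ⊔ zpowers y = F}

theorem Sp_commute {p : ℕ} [Fact p.Prime] {a b : MulAut A} (h : a * b = b * a) {u : A} (hu : a u = u) :
    a (Sp p b u) = Sp p b u := by
  unfold Sp
  rw [map_prod]
  refine Finset.prod_congr rfl ?_
  intro k _
  have hc : Commute a (b ^ k.val) := Commute.pow_right h _
  rw [← MulAut.mul_apply, hc.eq, MulAut.mul_apply, hu]

theorem zpowers_mul_sup {y w : MulAut A} (k : ℕ) :
    zpowers (y * w ^ k) ⊔ zpowers w = zpowers y ⊔ zpowers w := by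
  apply le_antisymm
  · refine sup_le ?_ le_sup_right
    rw [zpowers_le]
    exact mul_mem (mem_sup_left (mem_zpowers y))
      (mem_sup_right (pow_mem (mem_zpowers w) k))
  · refine sup_le ?_ le_sup_right
    rw [zpowers_le]
    have h1 : y * w ^ k ∈ zpowers (y * w ^ k) ⊔ zpowers w := mem_sup_left (mem_zpowers _)
    have h2 : (w ^ k)⁻¹ ∈ zpowers (y * w ^ k) ⊔ zpowers w :=
      mem_sup_right (inv_mem (pow_mem (mem_zpowers w) k))
    have h3 := mul_mem h1 h2
    simpa using h3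

theorem span_step {p : ℕ} [Fact p.Prime] (hcop : Nat.Coprime p (Nat.card A)) {E : Subgroup (MulAut A)}
    (hcomm : ∀ a ∈ E, ∀ b ∈ E, a * b = b * a) (hexp : ∀ a ∈ E, a ^ p = 1)
    {L : Subgroup (MulAut A)} {y w : MulAut A} (hL : L ≤ E) (hy : y ∈ E) (hw : w ∈ E) {u : A}
    (hu : u ∈ Fx L) : u ∈ ⨆ L' ∈ Co (L ⊔ zpowers y ⊔ zpowers w), Fx L' := by
  set F' := L ⊔ zpowers y ⊔ zpowers w with hF'
  set M := ⨆ L' ∈ Co F', Fx L' with hM
  have key : ∀ L' y', L' ⊔ zpowers y' = F' → Fx L' ≤ M := by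
    intro L' y' h
    exact le_iSup₂_of_le L' ⟨y', h⟩ le_rfl
  have hwp : w ^ p = 1 := hexp w hw
  have hyw : y * w = w * y := hcomm y hy w hw
  have hLy : ∀ a ∈ L, a * y = y * a := fun a ha => hcomm a (hL ha) y hy
  have hLw : ∀ a ∈ L, a * w = w * a := fun a ha => hcomm a (hL ha) w hw
  have hidentity := prod_Sp_mul_pow (p := p) hyw hwp u
  apply mem_of_pow_mem hcop
  have h1 : u ^ p = (∏ i : ZMod p, Sp p (y * w ^ i.val) u) *
      (∏ k ∈ (Finset.univ.erase (0 : ZMod p)), (y ^ k.val) (Sp p w u))⁻¹ := by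
    rw [hidentity]
    group
  rw [h1]
  refine mul_mem (prod_mem ?_) (inv_mem (prod_mem ?_))
  · intro i _
    have hb : y * w ^ i.val ∈ E := mul_mem hy (pow_mem hw _)
    refine key (L ⊔ zpowers (y * w ^ i.val)) w ?_ ?_
    · rw [sup_assoc, zpowers_mul_sup, ← sup_assoc]
    · rw [mem_Fx_sup]
      constructor
      · intro a ha
        apply Sp_commute _ (hu a ha)
        exact hcomm a (hL ha) _ hb
      · exact Sp_fixed (hexp _ hb) u
  · intro k _
    refine key (L ⊔ zpowers w) y ?_ ?_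
    · rw [sup_right_comm]
    · rw [mem_Fx_sup]
      have hv : ∀ a ∈ L, a (Sp p w u) = Sp p w u := fun a ha =>
        Sp_commute (hLw a ha) (hu a ha)
      have hvw : w (Sp p w u) = Sp p w u := Sp_fixed hwp u
      constructor
      · intro a ha
        have hc : Commute a (y ^ k.val) := Commute.pow_right (hLy a ha) _
        rw [← MulAut.mul_apply, hc.eq, MulAut.mul_apply, hv a ha]
      · have hc : Commute w (y ^ k.val) := Commute.pow_right hyw.symm _
        rw [← MulAut.mul_apply, hc.eq, MulAut.mul_apply, hvw]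

theorem span_finset {p : ℕ} [Fact p.Prime] (hcop : Nat.Coprime p (Nat.card A)) {E : Subgroup (MulAut A)}
    (hcomm : ∀ a ∈ E, ∀ b ∈ E, a * b = b * a) (hexp : ∀ a ∈ E, a ^ p = 1)
    (S : Finset (MulAut A)) (hS : ∀ s ∈ S, s ∈ E) (u : A) :
    u ∈ ⨆ L' ∈ Co (S.sup zpowers), Fx L' := by
  classical
  induction S using Finset.induction_on generalizing u with
  | empty =>
    have h : (⊤ : Subgroup A) ≤ Fx (⊥ : Subgroup (MulAut A)) := by
      intro v _ a ha
      rw [Subgroup.mem_bot.mp ha]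
      rfl
    have h3 : (⊤ : Subgroup A) ≤ ⨆ L' ∈ Co ((∅ : Finset (MulAut A)).sup zpowers), Fx L' :=
      le_iSup₂_of_le (⊥ : Subgroup (MulAut A)) ⟨1, by simp⟩ h
    exact h3 (mem_top u)
  | insert w S hw ih =>
    have hSE : ∀ s ∈ S, s ∈ E := fun s hs => hS s (Finset.mem_insert_of_mem hs)
    have hwE : w ∈ E := hS w (Finset.mem_insert_self w S)
    have hFE : S.sup zpowers ≤ E := Finset.sup_le fun s hs => zpowers_le.mpr (hSE s hs)
    have h1 := ih hSE u
    have h2 : (⨆ L' ∈ Co (S.sup zpowers), Fx L') ≤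
        ⨆ L' ∈ Co ((insert w S).sup zpowers), Fx L' := by
      refine iSup₂_le ?_
      rintro L' ⟨y, hy⟩ v hv
      have hL' : L' ≤ E := (le_sup_left.trans hy.le).trans hFE
      have hyE : y ∈ E := hFE (hy.le (mem_sup_right (mem_zpowers y)))
      have h3 := span_step hcop hcomm hexp hL' hyE hwE hv
      rw [hy] at h3
      rw [Finset.sup_insert, sup_comm]
      exact h3
    exact h2 h1

theorem span_E {p : ℕ} [Fact p.Prime] (hcop : Nat.Coprime p (Nat.card A)) {E : Subgroup (MulAut A)}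
    (hcomm : ∀ a ∈ E, ∀ b ∈ E, a * b = b * a) (hexp : ∀ a ∈ E, a ^ p = 1) (u : A) :
    u ∈ ⨆ L' ∈ Co E, Fx L' := by
  classical
  have hfin : (E : Set (MulAut A)).Finite := Set.toFinite _
  set S := hfin.toFinset with hS
  have hSE : ∀ s ∈ S, s ∈ E := fun s hs => by simpa [hS] using hs
  have h1 : S.sup zpowers = E := by
    apply le_antisymm
    · exact Finset.sup_le fun s hs => zpowers_le.mpr (hSE s hs)
    · intro e he
      have h2 : e ∈ S := by simpa [hS] using he
      exact (Finset.le_sup (f := zpowers) h2) (mem_zpowers e)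
  have h2 := span_finset hcop hcomm hexp S hSE u
  rwa [h1] at h2

theorem mem_sup_zpowers_comm {L : Subgroup (MulAut A)} {y m : MulAut A} (hc : ∀ a ∈ L, a * y = y * a)
    (hm : m ∈ L ⊔ zpowers y) : ∃ l ∈ L, ∃ k : ℤ, m = l * y ^ k := by
  let N : Subgroup (MulAut A) :=
    { carrier := {m | ∃ l ∈ L, ∃ k : ℤ, m = l * y ^ k}
      mul_mem' := by
        rintro _ _ ⟨l, hl, k, rfl⟩ ⟨l', hl', k', rfl⟩
        refine ⟨l * l', mul_mem hl hl', k + k', ?_⟩
        have h1 : Commute l' (y ^ k) := Commute.zpow_right (hc l' hl') k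
        rw [zpow_add]
        calc l * y ^ k * (l' * y ^ k') = l * (y ^ k * l') * y ^ k' := by group
          _ = l * (l' * y ^ k) * y ^ k' := by rw [h1.eq]
          _ = _ := by group
      one_mem' := ⟨1, one_mem _, 0, by simp⟩
      inv_mem' := by
        rintro _ ⟨l, hl, k, rfl⟩
        refine ⟨l⁻¹, inv_mem hl, -k, ?_⟩
        have h1 : Commute l (y ^ k) := Commute.zpow_right (hc l hl) k
        rw [mul_inv_rev, zpow_neg, ((h1.inv_inv)).eq] }
  have h : L ⊔ zpowers y ≤ N := by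
    refine sup_le ?_ ?_
    · intro l hl
      exact ⟨l, hl, 0, by simp⟩
    · rw [zpowers_le]
      exact ⟨1, one_mem _, 1, by simp⟩
  exact h hm

theorem gen_of_ne_one {p : ℕ} [hp : Fact p.Prime] {y w : MulAut A} (hy : y ^ p = 1)
    (hw : w ∈ zpowers y) (hw1 : w ≠ 1) : y ∈ zpowers w := by
  have hy1 : y ≠ 1 := by
    intro h
    apply hw1
    rw [h] at hw
    simpa using hw
  have h1 : orderOf y = p := orderOf_eq_prime hy hy1
  have hwp : w ^ p = 1 := by
    obtain ⟨k, rfl⟩ := hw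
    show (y ^ k) ^ p = 1
    rw [← zpow_natCast, ← zpow_mul, mul_comm, zpow_mul, zpow_natCast, hy, one_zpow]
  have h2 : orderOf w = p := orderOf_eq_prime hwp hw1
  have h3 : zpowers w ≤ zpowers y := zpowers_le.mpr hw
  have h4 : zpowers w = zpowers y :=
    Subgroup.eq_of_le_of_card_ge h3 (by rw [Nat.card_zpowers, Nat.card_zpowers, h1, h2])
  rw [h4]
  exact mem_zpowers y

/-- Two different members of the family generate. -/
theorem sup_eq_of_mem_not_mem {p : ℕ} [Fact p.Prime] {E L L' : Subgroup (MulAut A)}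
    (hcomm : ∀ a ∈ E, ∀ b ∈ E, a * b = b * a) (hexp : ∀ a ∈ E, a ^ p = 1)
    {y m : MulAut A} (hy : L ⊔ zpowers y = E) (hL' : L' ≤ E) (hm : m ∈ L') (hmL : m ∉ L) :
    L ⊔ L' = E := by
  have hLE : L ≤ E := hy ▸ le_sup_left
  have hyE : y ∈ E := hy.le (mem_sup_right (mem_zpowers y))
  apply le_antisymm (sup_le hLE hL')
  obtain ⟨l, hl, k, hk⟩ := mem_sup_zpowers_comm (fun a ha => hcomm a (hLE ha) y hyE)
    (hy.ge (hL' hm))
  have h1 : y ^ k ∈ L ⊔ L' := by
    have h2 : y ^ k = l⁻¹ * m := by rw [hk]; group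
    rw [h2]
    exact mul_mem (mem_sup_left (inv_mem hl)) (mem_sup_right hm)
  have h2 : y ^ k ≠ 1 := by
    intro h
    apply hmL
    rw [hk, h, mul_one]
    exact hl
  have h3 : y ∈ zpowers (y ^ k) := gen_of_ne_one (hexp y hyE) (zpow_mem (mem_zpowers y) k) h2
  have h4 : y ∈ L ⊔ L' := (zpowers_le.mpr h1) h3
  rw [← hy]
  exact sup_le le_sup_left (zpowers_le.mpr h4)

theorem mem_cj {g a : MulAut A} {L : Subgroup (MulAut A)} :
    a ∈ MulAut.conj g • L ↔ g⁻¹ * a * g ∈ L := by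
  rw [Subgroup.mem_pointwise_smul_iff_inv_smul_mem]
  simp [MulAut.smul_def]

theorem conj_Co {E : Subgroup (MulAut A)} {g : MulAut A} (h1 : ∀ f ∈ E, g * f * g⁻¹ ∈ E)
    (h2 : ∀ f ∈ E, g⁻¹ * f * g ∈ E) {L : Subgroup (MulAut A)} (hL : L ∈ Co E) :
    MulAut.conj g • L ∈ Co E := by
  obtain ⟨y, hy⟩ := hL
  refine ⟨g * y * g⁻¹, ?_⟩
  have h3 : zpowers (g * y * g⁻¹) = MulAut.conj g • zpowers y := by
    ext a
    rw [mem_cj]
    constructor
    · rintro ⟨k, rfl⟩
      refine ⟨k, ?_⟩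
      show y ^ k = g⁻¹ * (g * y * g⁻¹) ^ k * g
      rw [conj_zpow]
      group
    · rintro ⟨k, hk⟩
      have hk' : y ^ k = g⁻¹ * a * g := hk
      refine ⟨k, ?_⟩
      show (g * y * g⁻¹) ^ k = a
      rw [conj_zpow, hk']
      group
  rw [h3, ← Subgroup.smul_sup, hy]
  ext a
  rw [mem_cj]
  constructor
  · intro h
    have := h1 _ h
    have h4 : g * (g⁻¹ * a * g) * g⁻¹ = a := by group
    rwa [h4] at this
  · exact h2 a

theorem conj_Fx {g : MulAut A} {L : Subgroup (MulAut A)} {u : A} (hu : u ∈ Fx L) :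
    g u ∈ Fx (MulAut.conj g • L) := by
  intro a ha
  have h1 := hu _ (mem_cj.mp ha)
  have h2 : g ((g⁻¹ * a * g) u) = g u := by rw [h1]
  simpa [MulAut.mul_apply, MulAut.apply_inv_self] using h2

/-- **The hyperplane case.** -/
theorem hyper_case {p : ℕ} [Fact p.Prime] (hpp : p.Prime) (hp2 : p ≠ 2) (H T E : Subgroup (MulAut A))
    (hET : E ≤ T) (hEinv : ∀ g ∈ H, ∀ f ∈ E, g * f * g⁻¹ ∈ E)
    (hcomm : ∀ a ∈ E, ∀ b ∈ E, a * b = b * a) (hexp : ∀ a ∈ E, a ^ p = 1)
    (hnc : ¬ IsCyclic E) (hfx : Fx E = ⊥)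
    (hTle : T ≤ H) (hTn : ∀ g ∈ H, ∀ t ∈ T, g * t * g⁻¹ ∈ T) (hTp : IsPGroup p T)
    {x : MulAut A} (hx : x ∈ T) (hx1 : x ≠ 1) (hcop : Nat.Coprime p (Nat.card A))
    (IHa : ∀ a' < Nat.card T, ∀ b, AvoidP.{u} p a' b)
    (IHb : ∀ b' < Nat.card A, AvoidP.{u} p (Nat.card T) b') :
    ∃ v : A, ∀ g ∈ H, (g * x * g⁻¹) v ≠ v := by
  classical
  have hEinv2 : ∀ g ∈ H, ∀ f ∈ E, g⁻¹ * f * g ∈ E := by
    intro g hg f hf
    have := hEinv g⁻¹ (inv_mem hg) f hf
    simpa using this
  have hEp : IsPGroup p E := hTp.to_le hET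
  let ι := {L : Subgroup (MulAut A) // L ∈ Co E ∧ Fx L ≠ ⊥}
  haveI : Fintype ι := Fintype.ofFinite ι
  have hCoLe : ∀ {L}, L ∈ Co E → L ≤ E := by
    rintro L ⟨y, hy⟩
    exact hy ▸ le_sup_left
  have hpres : ∀ (g : H) (i : ι), (MulAut.conj (g : MulAut A) • i.1) ∈ Co E ∧
      Fx (MulAut.conj (g : MulAut A) • i.1) ≠ ⊥ := by
    rintro g ⟨L, hL, hne⟩
    refine ⟨conj_Co (hEinv g g.2) (hEinv2 g g.2) hL, ?_⟩
    intro h
    apply hne
    rw [eq_bot_iff]
    intro u hu
    have h1 := conj_Fx (g := (g : MulAut A)) hu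
    rw [h, Subgroup.mem_bot] at h1
    have h2 : (g : MulAut A) u = (g : MulAut A) 1 := by rw [map_one]; exact h1
    exact (Subgroup.mem_bot).mpr ((g : MulAut A).injective h2)
  letI : MulAction H ι :=
    { smul := fun g i => ⟨MulAut.conj (g : MulAut A) • i.1, hpres g i⟩
      one_smul := fun i => Subtype.ext (by
        show MulAut.conj ((1 : H) : MulAut A) • i.1 = i.1
        simp)
      mul_smul := fun g h i => Subtype.ext (by
        show MulAut.conj ((g * h : H) : MulAut A) • i.1 =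
          MulAut.conj (g : MulAut A) • (MulAut.conj (h : MulAut A) • i.1)
        rw [Subgroup.coe_mul, map_mul, mul_smul]) }
  refine block_lemma hpp hp2 H T (MulAction.toPermHom H ι) (fun i => Fx i.1) ?_ ?_ ?_ ?_ ?_ hTle hTn
    hTp hx hx1 hcop ?_ IHa IHb
  · intro g i u hu
    exact conj_Fx hu
  · refine indep_fix (fun i : ι => i.1) ?_ ?_ ?_
    · intro i
      exact isCoprime_card_of_pgroup (hEp.to_le (hCoLe i.2.1)) hcop
    · intro i j a ha b hb
      exact hcomm a (hCoLe i.2.1 ha) b (hCoLe j.2.1 hb)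
    · intro i j hij u hi hj
      have h1 : i.1 ≠ j.1 := fun h => hij (Subtype.ext h)
      have hsup : i.1 ⊔ j.1 = E := by
        obtain ⟨y, hy⟩ := i.2.1
        obtain ⟨y', hy'⟩ := j.2.1
        by_cases h2 : j.1 ≤ i.1
        · have h3 : ¬ i.1 ≤ j.1 := fun h => h1 (le_antisymm h h2)
          obtain ⟨m, hm, hm2⟩ := SetLike.not_le_iff_exists.mp h3
          rw [sup_comm]
          exact sup_eq_of_mem_not_mem hcomm hexp hy' (hCoLe i.2.1) hm hm2
        · obtain ⟨m, hm, hm2⟩ := SetLike.not_le_iff_exists.mp h2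
          exact sup_eq_of_mem_not_mem hcomm hexp hy (hCoLe j.2.1) hm hm2
      have h2 : u ∈ Fx E := by
        rw [← hsup, mem_Fx_iff_le]
        exact sup_le (mem_Fx_iff_le.mp hi) (mem_Fx_iff_le.mp hj)
      rw [hfx] at h2
      exact Subgroup.mem_bot.mp h2
  · intro u
    have h1 := span_E hcop hcomm hexp u
    have h2 : (⨆ L' ∈ Co E, Fx L') ≤ ⨆ i : ι, Fx i.1 := by
      refine iSup₂_le ?_
      intro L hL
      by_cases h3 : Fx L = ⊥
      · rw [h3]
        exact bot_le
      · exact le_iSup (fun i : ι => Fx i.1) ⟨L, hL, h3⟩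
    exact h2 h1
  · intro i
    by_contra hcon
    push Not at hcon
    apply i.2.2
    rw [eq_bot_iff]
    intro u hu
    exact Subgroup.mem_bot.mpr (hcon u hu)
  · rintro ⟨L, ⟨y, hy⟩, hne⟩ h
    apply hnc
    have h1 : L = ⊥ := by
      rw [eq_bot_iff]
      intro a ha
      rw [Subgroup.mem_bot]
      ext u
      have h2 : u ∈ Fx L := by
        have : u ∈ (⊤ : Subgroup A) := mem_top u
        exact (show (⊤ : Subgroup A) ≤ Fx L from h.ge) this
      exact h2 a ha
    have h2 : E = zpowers y := by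
      rw [← hy, h1, bot_sup_eq]
    rw [h2]
    infer_instance
  · have hE1 : E ≠ ⊥ := by
      intro h
      apply hnc
      rw [h]
      infer_instance
    obtain ⟨t, ht1⟩ := Subgroup.ne_bot_iff_exists_ne_one.mp hE1
    have ht1' : (t : MulAut A) ≠ 1 := fun h => ht1 (Subtype.ext h)
    refine ⟨t, hET t.2, ht1', ?_⟩
    apply Equiv.ext
    intro i
    apply Subtype.ext
    show MulAut.conj (t : MulAut A) • i.1 = i.1
    ext a
    rw [mem_cj]
    have hLE := hCoLe i.2.1
    constructor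
    · intro h
      have h2 := hLE h
      have h3 := hcomm _ t.2 _ h2
      have h4 : a = (t : MulAut A)⁻¹ * a * t := by
        have h5 : (t : MulAut A) * ((t : MulAut A)⁻¹ * a * t) * (t : MulAut A)⁻¹ = a := by group
        rw [h3] at h5
        have h6 : (t : MulAut A)⁻¹ * a * t * (t : MulAut A) * (t : MulAut A)⁻¹ = (t : MulAut A)⁻¹ * a * t := by
          group
        rw [h6] at h5
        exact h5.symm
      rw [h4]
      exact h
    · intro h
      have h2 := hLE h
      have h3 := hcomm _ t.2 _ h2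
      have h4 : (t : MulAut A)⁻¹ * a * t = a := by
        rw [mul_assoc, ← h3]
        group
      rw [h4]
      exact h

end Cfsg.Agent.Lib.LinAvoid
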