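import Mathlib
import Cfsg.Agent.Lib.LinAvoid.Hyper
import Cfsg.Agent.Lib.PGroup.SympHall
import Cfsg.Agent.Lib.PGroup.Extraspecial
import Cfsg.Agent.Lib.PGroup.CyclicMax2
import Cfsg.Agent.S3762

/-!
# Avoiding the fixed points of a conjugacy class in a normal `p`-subgroup

`H` acts on a finite abelian group `A` of order prime to the odd prime `p`; `T` is a normal
subgroup of `H` with image a `p`-group; `x ∈ T` acts nontrivially. Then some `v ∈ A` is fixed by no
`H`-conjugate of `x`.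
-/

set_option autoImplicit false
set_option linter.unusedSectionVars false
set_option linter.unusedVariables false
set_option linter.style.haveILetI false

universe u

namespace Cfsg.Agent.Lib.LinAvoid

open Subgroup
open scoped commutatorElement

theorem comm_central_product {G : Type*} [Group G] {e e' r r' : G} (h1 : r * e' = e' * r)
    (h2 : r' * e = e * r') (h5 : r * r' = r' * r) : ⁅e * r, e' * r'⁆ = ⁅e, e'⁆ := by
  have key : e * r * (e' * r') = ⁅e, e'⁆ * (e' * r') * (e * r) := by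
    rw [commutatorElement_def]
    calc e * r * (e' * r') = e * (r * e') * r' := by group
      _ = e * (e' * r) * r' := by rw [h1]
      _ = e * e' * (r * r') := by group
      _ = e * e' * (r' * r) := by rw [h5]
      _ = (e * e' * e⁻¹ * e'⁻¹) * e' * e * (r' * r) := by group
      _ = (e * e' * e⁻¹ * e'⁻¹) * e' * (e * r') * r := by group
      _ = (e * e' * e⁻¹ * e'⁻¹) * e' * (r' * e) * r := by rw [h2]
      _ = _ := by group
  rw [commutatorElement_def (e * r), key]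
  group

variable {A : Type u} [CommGroup A] [Finite A] {p : ℕ}

theorem avoid_mono {a a' b : ℕ} (h : a' ≤ a) (hA : AvoidP.{u} p a b) : AvoidP.{u} p a' b := by
  intro A _ _ H _ ρ T hTn hTp x hx hρ hcop ha hb
  exact hA A H ρ T hTn hTp x hx hρ hcop (ha.trans h) hb

/-- Class at most two from the structure theorem. -/
theorem class_two_of_symp {T : Type*} [Group T] [Finite T] [Fact p.Prime] (hp2 : p ≠ 2)
    (hG : IsPGroup p T)
    (hsymp : ∀ C : Subgroup T, C.Characteristic → IsMulCommutative C → IsCyclic C) :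
    ∀ s t : T, ⁅s, t⁆ ∈ center T := by
  obtain ⟨E, R, hcER, hsup, hE, hR⟩ := Cfsg.Agent.S3762.result hG hsymp
  have hRc : IsCyclic R := by
    rcases hR with hR | ⟨h2, _⟩
    · exact hR
    · exact absurd h2 hp2
  have hRcomm : ∀ a ∈ R, ∀ b ∈ R, a * b = b * a := by
    intro a ha b hb
    have h1 : IsMulCommutative R := inferInstance
    have h2 := mul_comm' (⟨a, ha⟩ : R) ⟨b, hb⟩
    exact congrArg Subtype.val h2
  intro s t
  obtain ⟨e, he, r, hr, rfl⟩ := Cfsg.Agent.Lib.PGroup.SympHall.decomp_of_sup hsup hcER s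
  obtain ⟨e', he', r', hr', rfl⟩ := Cfsg.Agent.Lib.PGroup.SympHall.decomp_of_sup hsup hcER t
  rw [comm_central_product (hcER e' he' r hr).symm (hcER e he r' hr').symm (hRcomm r hr r' hr')]
  rcases hE with rfl | hext
  · have h1 : e = 1 := Subgroup.mem_bot.mp he
    rw [h1]
    simp [one_mem]
  · have hc := Cfsg.Agent.Lib.PGroup.Extraspecial.IsExtraspecial.comm_mem_center hext ⟨e, he⟩ ⟨e', he'⟩
    rw [Subgroup.mem_center_iff] at hc ⊢
    intro g
    obtain ⟨e'', he'', r'', hr'', rfl⟩ := Cfsg.Agent.Lib.PGroup.SympHall.decomp_of_sup hsup hcER g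
    have hcE : ⁅e, e'⁆ ∈ E := by
      rw [commutatorElement_def]
      exact mul_mem (mul_mem (mul_mem he he') (inv_mem he)) (inv_mem he')
    have h1 := congrArg Subtype.val (hc ⟨e'', he''⟩)
    have h1' : e'' * ⁅e, e'⁆ = ⁅e, e'⁆ * e'' := h1
    have h2 := hcER _ hcE r'' hr''
    calc e'' * r'' * ⁅e, e'⁆ = e'' * (r'' * ⁅e, e'⁆) := by group
      _ = e'' * (⁅e, e'⁆ * r'') := by rw [h2]
      _ = (e'' * ⁅e, e'⁆) * r'' := by group
      _ = (⁅e, e'⁆ * e'') * r'' := by rw [h1']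
      _ = _ := by group

/-- The case without noncyclic invariant elementary abelian subgroups. -/
theorem case_two [Fact p.Prime] (hpp : p.Prime) (hp2 : p ≠ 2) (H : Subgroup (MulAut A))
    (Sg : Set (MulAut A)) (hSg : ∀ s ∈ Sg, s ^ p = 1)
    (hTle : closure Sg ≤ H) (hTn : ∀ g ∈ H, ∀ t ∈ closure Sg, g * t * g⁻¹ ∈ closure Sg)
    (hTp : IsPGroup p (closure Sg))
    (hI : ∀ E : Subgroup (MulAut A), E ≤ closure Sg → (∀ g ∈ H, ∀ f ∈ E, g * f * g⁻¹ ∈ E) →
      (∀ a ∈ E, ∀ b ∈ E, a * b = b * a) → (∀ a ∈ E, a ^ p = 1) → IsCyclic E)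
    {x : MulAut A} (hx : x ∈ closure Sg) (hx1 : x ≠ 1) (hcop : Nat.Coprime p (Nat.card A))
    (IHa : ∀ a' < Nat.card (closure Sg), ∀ b, AvoidP.{u} p a' b)
    (IHb : ∀ b' < Nat.card A, AvoidP.{u} p (Nat.card (closure Sg)) b') :
    ∃ v : A, ∀ g ∈ H, (g * x * g⁻¹) v ≠ v := by
  classical
  set T := closure Sg with hTdef
  haveI : Nontrivial T := ⟨⟨⟨x, hx⟩, 1, fun h => hx1 (congrArg Subtype.val h)⟩⟩
  -- conjugation automorphisms of `T`
  have hTn2 : ∀ g ∈ H, ∀ t ∈ T, g⁻¹ * t * g ∈ T := by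
    intro g hg t ht
    have := hTn g⁻¹ (inv_mem hg) t ht
    simpa using this
  let φ : ∀ g : H, MulAut T := fun g =>
    { toFun := fun t => ⟨g * t * (g : MulAut A)⁻¹, hTn g g.2 t t.2⟩
      invFun := fun t => ⟨(g : MulAut A)⁻¹ * t * g, hTn2 g g.2 t t.2⟩
      left_inv := by
        intro t
        apply Subtype.ext
        show (g : MulAut A)⁻¹ * (g * t * (g : MulAut A)⁻¹) * g = t
        group
      right_inv := by
        intro t
        apply Subtype.ext
        show (g : MulAut A) * ((g : MulAut A)⁻¹ * t * g) * (g : MulAut A)⁻¹ = t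
        group
      map_mul' := by
        intro a b
        apply Subtype.ext
        show (g : MulAut A) * (a * b) * (g : MulAut A)⁻¹ =
          (g * a * (g : MulAut A)⁻¹) * (g * b * (g : MulAut A)⁻¹)
        group }
  have hφ : ∀ (g : H) (t : T), ((φ g t : T) : MulAut A) = g * t * (g : MulAut A)⁻¹ := fun _ _ => rfl
  have hsymp : ∀ C : Subgroup T, C.Characteristic → IsMulCommutative C → IsCyclic C := by
    intro C hC hCc
    have hcommC : ∀ a b : C, a * b = b * a := fun a b => mul_comm' a b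
    refine Cfsg.Agent.Lib.PGroup.CyclicMax2.isCyclic_of_comm_uniqueP (p := p) hcommC
      (IsPGroup.to_subgroup hTp C) ?_
    intro y z hy hz hy1 hz1
    have hy' : ((y : T) : MulAut A) ^ p = 1 := by
      have := congrArg (fun w : C => ((w : T) : MulAut A)) hy
      simpa using this
    have hz' : ((z : T) : MulAut A) ^ p = 1 := by
      have := congrArg (fun w : C => ((w : T) : MulAut A)) hz
      simpa using this
    let E : Subgroup (MulAut A) :=
      { carrier := {t | ∃ h : t ∈ T, (⟨t, h⟩ : T) ∈ C ∧ t ^ p = 1}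
        mul_mem' := by
          rintro a b ⟨ha, haC, hap⟩ ⟨hb, hbC, hbp⟩
          refine ⟨mul_mem ha hb, mul_mem haC hbC, ?_⟩
          have h1 : a * b = b * a :=
            congrArg (fun w : C => ((w : T) : MulAut A)) (hcommC ⟨_, haC⟩ ⟨_, hbC⟩)
          have h2 : Commute a b := h1
          rw [h2.mul_pow, hap, hbp, one_mul]
        one_mem' := ⟨one_mem _, one_mem C, one_pow _⟩
        inv_mem' := by
          rintro a ⟨ha, haC, hap⟩
          exact ⟨inv_mem ha, inv_mem haC, by rw [inv_pow, hap, inv_one]⟩ }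
    have hEle : E ≤ T := fun t ht => ht.1
    have hEc : IsCyclic E := by
      refine hI E hEle ?_ ?_ ?_
      · rintro g hg f ⟨hf, hfC, hfp⟩
        refine ⟨hTn g hg f hf, ?_, ?_⟩
        · have h1 := Cfsg.Agent.Lib.PGroup.SympHall.char_map_le hC (φ ⟨g, hg⟩) hfC
          exact h1
        · rw [conj_pow, hfp]
          simp
      · rintro a ⟨ha, haC, _⟩ b ⟨hb, hbC, _⟩
        exact congrArg (fun w : C => ((w : T) : MulAut A)) (hcommC ⟨_, haC⟩ ⟨_, hbC⟩)
      · rintro a ⟨_, _, hap⟩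
        exact hap
    have hyE : ((y : T) : MulAut A) ∈ E := ⟨(y : T).2, y.2, hy'⟩
    have hzE : ((z : T) : MulAut A) ∈ E := ⟨(z : T).2, z.2, hz'⟩
    have hz1' : ((z : T) : MulAut A) ≠ 1 := by
      intro h
      exact hz1 (Subtype.ext (Subtype.ext h))
    obtain ⟨k, hk⟩ := Cfsg.Agent.Lib.PGroup.SympHall.mem_zpowers_of_cyclic hEc hyE hzE hy' hz' hz1'
    refine ⟨k, Subtype.ext (Subtype.ext ?_)⟩
    simpa using hk
  have hc := class_two_of_symp hp2 hTp hsymp
  -- exponent `p`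
  have hexpT : ∀ t : T, t ^ p = 1 := by
    intro t
    apply Cfsg.Agent.Lib.PGroup.Extraspecial.pow_eq_one_of_mem_closure hp2 hc
    have h1 : closure (Subtype.val ⁻¹' Sg : Set T) = ⊤ := closure_closure_coe_preimage
    have h2 : t ∈ closure (Subtype.val ⁻¹' Sg : Set T) := by rw [h1]; exact mem_top t
    refine (Subgroup.closure_mono ?_) h2
    intro a ha
    show a ^ p = 1
    apply Subtype.ext
    simpa using hSg _ ha
  have hexp : ∀ t ∈ T, t ^ p = 1 := by
    intro t ht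
    have := congrArg Subtype.val (hexpT ⟨t, ht⟩)
    simpa using this
  -- the centre
  set Z₀ : Subgroup (MulAut A) := (center T).map T.subtype with hZ₀
  have hZ₀le : Z₀ ≤ T := Subgroup.map_subtype_le _
  have hZ₀inv : ∀ g ∈ H, ∀ f ∈ Z₀, g * f * g⁻¹ ∈ Z₀ := by
    rintro g hg _ ⟨c, hc', rfl⟩
    have h1 := Cfsg.Agent.Lib.PGroup.SympHall.char_map_le
      (inferInstance : (center T).Characteristic) (φ ⟨g, hg⟩) hc'
    exact ⟨_, h1, rfl⟩
  have hZ₀comm : ∀ a ∈ Z₀, ∀ b ∈ Z₀, a * b = b * a := by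
    rintro _ ⟨a, ha, rfl⟩ _ ⟨b, hb, rfl⟩
    have h1 := (Subgroup.mem_center_iff.mp ha) b
    exact (congrArg Subtype.val h1).symm
  have hZ₀c : IsCyclic Z₀ := hI Z₀ hZ₀le hZ₀inv hZ₀comm (fun a ha => hexp a (hZ₀le ha))
  obtain ⟨z₀, hz₀⟩ : ∃ z₀ : center T, z₀ ≠ 1 := by
    haveI := IsPGroup.center_nontrivial hTp
    exact exists_ne 1
  set z : MulAut A := ((z₀ : T) : MulAut A) with hz
  have hzT : z ∈ T := (z₀ : T).2
  have hzZ : z ∈ Z₀ := ⟨z₀, z₀.2, rfl⟩
  have hz1 : z ≠ 1 := by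
    intro h
    exact hz₀ (Subtype.ext (Subtype.ext h))
  have hzp : z ^ p = 1 := hexp z hzT
  have hZ₀le2 : Z₀ ≤ zpowers z := fun w hw =>
    Cfsg.Agent.Lib.PGroup.SympHall.mem_zpowers_of_cyclic hZ₀c hw hzZ (hexp w (hZ₀le hw)) hzp hz1
  have hcz : ∀ t ∈ T, t * z = z * t := by
    intro t ht
    have h1 := (Subgroup.mem_center_iff.mp z₀.2) ⟨t, ht⟩
    exact congrArg Subtype.val h1
  have hcomm : ∀ s ∈ T, ∀ t ∈ T, ∃ m : ℕ, s * t * s⁻¹ * t⁻¹ = z ^ m := by
    intro s hs t ht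
    have h1 := hc ⟨s, hs⟩ ⟨t, ht⟩
    have h2 : s * t * s⁻¹ * t⁻¹ ∈ Z₀ := ⟨_, h1, by simp [commutatorElement_def]⟩
    have h3 := hZ₀le2 h2
    have h4 := (mem_powers_iff_mem_zpowers).mpr h3
    obtain ⟨m, hm⟩ := h4
    exact ⟨m, hm.symm⟩
  by_cases hfx : Fx Z₀ = ⊥
  · have hfpf : ∀ u ∈ (⊤ : Subgroup A), z u = u → u = 1 := by
      intro u _ hu
      have h1 : u ∈ Fx Z₀ := by
        rw [mem_Fx_iff_le]
        refine hZ₀le2.trans ?_
        rw [zpowers_le]
        exact hu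
      rw [hfx] at h1
      exact Subgroup.mem_bot.mp h1
    obtain ⟨v, -, hv⟩ := exists_regular hp2 hcop z hzp _ T ⊤ le_rfl hzT hexp hcz hcomm
      (fun _ _ _ _ => mem_top _) hfpf
    refine ⟨v, ?_⟩
    intro g hg h
    have h1 := hv _ (hTn g hg x hx) h
    apply hx1
    have h2 : g * x * g⁻¹ = 1 := by
      ext u
      exact h1 u (mem_top u)
    have h3 : x = g⁻¹ * (g * x * g⁻¹) * g := by group
    rw [h3, h2]
    group
  · have hZ₀1 : Z₀ ≠ ⊥ := by
      intro h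
      rw [h] at hzZ
      exact hz1 (Subgroup.mem_bot.mp hzZ)
    exact split_lemma hpp hp2 H T Z₀ hZ₀le hZ₀1 hZ₀inv hfx hTle hTn hTp hx hx1 hcop IHa IHb

/-- One step of the induction. -/
theorem step_faithful [hp : Fact p.Prime] (hp2 : p ≠ 2) (H T₀ : Subgroup (MulAut A))
    (hT₀le : T₀ ≤ H) (hT₀n : ∀ g ∈ H, ∀ t ∈ T₀, g * t * g⁻¹ ∈ T₀) (hT₀p : IsPGroup p T₀)
    {x : MulAut A} (hx : x ∈ T₀) (hx1 : x ≠ 1) (hcop : Nat.Coprime p (Nat.card A))
    (IHa : ∀ a' < Nat.card T₀, ∀ b, AvoidP.{u} p a' b)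
    (IHb : ∀ b' < Nat.card A, AvoidP.{u} p (Nat.card T₀) b') :
    ∃ v : A, ∀ g ∈ H, (g * x * g⁻¹) v ≠ v := by
  classical
  have hpp : p.Prime := hp.out
  obtain ⟨k, hk⟩ := IsPGroup.iff_orderOf.mp hT₀p ⟨x, hx⟩
  have hk' : orderOf x = p ^ k := by
    rw [← hk]
    exact (Subgroup.orderOf_mk x hx).symm
  have hk0 : k ≠ 0 := by
    intro h
    rw [h, pow_zero] at hk'
    exact hx1 (orderOf_eq_one_iff.mp hk')
  obtain ⟨k₁, rfl⟩ := Nat.exists_eq_succ_of_ne_zero hk0
  set y := x ^ (p ^ k₁) with hy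
  have hyp : y ^ p = 1 := by
    rw [hy, ← pow_mul, ← pow_succ, ← hk']
    exact pow_orderOf_eq_one x
  have hy1 : y ≠ 1 := by
    apply pow_ne_one_of_lt_orderOf (pow_ne_zero _ hpp.ne_zero)
    rw [hk']
    exact Nat.pow_lt_pow_right hpp.one_lt (Nat.lt_succ_self _)
  set Sg : Set (MulAut A) := {t | t ∈ T₀ ∧ t ^ p = 1} with hSg
  have hTT₀ : closure Sg ≤ T₀ := (closure_le _).mpr fun t ht => ht.1
  have hyT : y ∈ closure Sg := subset_closure ⟨pow_mem hx _, hyp⟩
  have hTp : IsPGroup p (closure Sg) := hT₀p.to_le hTT₀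
  have hTle : closure Sg ≤ H := hTT₀.trans hT₀le
  have hTn : ∀ g ∈ H, ∀ t ∈ closure Sg, g * t * g⁻¹ ∈ closure Sg := by
    intro g hg t ht
    induction ht using closure_induction with
    | mem t ht =>
      refine subset_closure ⟨hT₀n g hg t ht.1, ?_⟩
      rw [conj_pow, ht.2]
      simp
    | one => simp
    | mul a b _ _ ha hb =>
      have h1 : g * (a * b) * g⁻¹ = (g * a * g⁻¹) * (g * b * g⁻¹) := by group
      rw [h1]
      exact mul_mem ha hb
    | inv a _ ha =>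
      have h1 : g * a⁻¹ * g⁻¹ = (g * a * g⁻¹)⁻¹ := by group
      rw [h1]
      exact inv_mem ha
  have hcard : Nat.card (closure Sg) ≤ Nat.card T₀ := card_le_of_le hTT₀
  have IHa' : ∀ a' < Nat.card (closure Sg), ∀ b, AvoidP.{u} p a' b := fun a' h b =>
    IHa a' (lt_of_lt_of_le h hcard) b
  have IHb' : ∀ b' < Nat.card A, AvoidP.{u} p (Nat.card (closure Sg)) b' := fun b' h =>
    avoid_mono hcard (IHb b' h)
  have key : ∃ v : A, ∀ g ∈ H, (g * y * g⁻¹) v ≠ v := by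
    by_cases hI : ∃ E : Subgroup (MulAut A), E ≤ closure Sg ∧ (∀ g ∈ H, ∀ f ∈ E, g * f * g⁻¹ ∈ E) ∧
        (∀ a ∈ E, ∀ b ∈ E, a * b = b * a) ∧ (∀ a ∈ E, a ^ p = 1) ∧ ¬ IsCyclic E
    · obtain ⟨E, hEle, hEinv, hEcomm, hEexp, hEnc⟩ := hI
      by_cases hfx : Fx E = ⊥
      · exact hyper_case hpp hp2 H _ E hEle hEinv hEcomm hEexp hEnc hfx hTle hTn hTp hyT hy1 hcop
          IHa' IHb'
      · have hE1 : E ≠ ⊥ := by
          intro h
          apply hEnc
          rw [h]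
          infer_instance
        exact split_lemma hpp hp2 H _ E hEle hE1 hEinv hfx hTle hTn hTp hyT hy1 hcop IHa' IHb'
    · push Not at hI
      refine case_two hpp hp2 H Sg (fun s hs => hs.2) hTle hTn hTp ?_ hyT hy1 hcop IHa' IHb'
      intro E h1 h2 h3 h4
      by_contra hnc
      exact hnc (hI E h1 h2 h3 h4)
  obtain ⟨v, hv⟩ := key
  refine ⟨v, fun g hg h => hv g hg ?_⟩
  have h1 : g * y * g⁻¹ = (g * x * g⁻¹) ^ (p ^ k₁) := by
    rw [hy, conj_pow]
  rw [h1]
  exact pow_fix h _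

/-- The avoidance property holds. -/
theorem avoid_all [hp : Fact p.Prime] (hp2 : p ≠ 2) : ∀ a b, AvoidP.{u} p a b := by
  intro a
  induction a using Nat.strong_induction_on with
  | _ a iha =>
  intro b
  induction b using Nat.strong_induction_on with
  | _ b ihb =>
  intro A _ _ H _ ρ T hTn hTp x hx hρ hcop ha hb
  obtain ⟨v, hv⟩ := step_faithful hp2 ρ.range (T.map ρ) (map_le_range ρ T)
    (by
      rintro _ ⟨g, rfl⟩ _ ⟨t, ht, rfl⟩
      refine ⟨g * t * g⁻¹, hTn.conj_mem t ht g, ?_⟩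
      simp [map_mul, map_inv])
    (hTp.map ρ) (mem_map_of_mem ρ hx) hρ hcop
    (fun a' h b' => iha a' (lt_of_lt_of_le h ha) b')
    (fun b' h => avoid_mono ha (ihb b' (lt_of_lt_of_le h hb)))
  refine ⟨v, fun g => ?_⟩
  rw [map_mul, map_mul, map_inv]
  exact hv (ρ g) ⟨g, rfl⟩

/-- **Main theorem.** -/
theorem exists_avoid [hp : Fact p.Prime] (hp2 : p ≠ 2) {H : Type u} [Group H]
    (ρ : H →* MulAut A) (T : Subgroup H) (hTn : T.Normal) (hTp : IsPGroup p (T.map ρ))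
    {x : H} (hx : x ∈ T) (hρ : ρ x ≠ 1) (hcop : Nat.Coprime p (Nat.card A)) :
    ∃ v : A, ∀ g : H, ρ (g * x * g⁻¹) v ≠ v := by
  obtain ⟨v, hv⟩ := step_faithful hp2 ρ.range (T.map ρ) (map_le_range ρ T)
    (by
      rintro _ ⟨g, rfl⟩ _ ⟨t, ht, rfl⟩
      refine ⟨g * t * g⁻¹, hTn.conj_mem t ht g, ?_⟩
      simp [map_mul, map_inv])
    hTp (mem_map_of_mem ρ hx) hρ hcop
    (fun a' h b' => avoid_all hp2 a' b')
    (fun b' h => avoid_all hp2 _ b')
  refine ⟨v, fun g => ?_⟩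
  rw [map_mul, map_mul, map_inv]
  exact hv (ρ g) ⟨g, rfl⟩

end Cfsg.Agent.Lib.LinAvoid
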